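import Mathlib

/-!
# Fixed points of an element permuting cyclically a set of commuting simple subgroups
-/

set_option autoImplicit false
open Subgroup MulAction

namespace Cfsg.Agent.H452.Wr

section

variable {L : Type*} [Group L]

/-- The conjugate `x^i S x^(-i)`. -/
def Sc (x : L) (S : Subgroup L) (i : ℤ) : Subgroup L := S.map (MulAut.conj (x ^ i)).toMonoidHom

theorem mem_Sc {x : L} {S : Subgroup L} {i : ℤ} {t : L} :
    t ∈ Sc x S i ↔ (x ^ i)⁻¹ * t * x ^ i ∈ S := by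
  unfold Sc
  constructor
  · rintro ⟨s, hs, rfl⟩
    have h : (x ^ i)⁻¹ * ((MulAut.conj (x ^ i)).toMonoidHom s) * x ^ i = s := by
      change (x ^ i)⁻¹ * (x ^ i * s * (x ^ i)⁻¹) * x ^ i = s
      group
    rw [h]
    exact hs
  · intro h
    refine ⟨_, h, ?_⟩
    change x ^ i * ((x ^ i)⁻¹ * t * x ^ i) * (x ^ i)⁻¹ = t
    group

theorem Sc_zero (x : L) (S : Subgroup L) : Sc x S 0 = S := by
  ext t
  rw [mem_Sc]
  simp

theorem mem_Sc_shift {x : L} {S : Subgroup L} {i : ℤ} {t : L} (k : ℤ) (h : t ∈ Sc x S i) :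
    x ^ k * t * (x ^ k)⁻¹ ∈ Sc x S (i + k) := by
  rw [mem_Sc] at h ⊢
  have : (x ^ (i + k))⁻¹ * (x ^ k * t * (x ^ k)⁻¹) * x ^ (i + k) = (x ^ i)⁻¹ * t * x ^ i := by
    rw [zpow_add]
    have h1 : x ^ i * x ^ k = x ^ k * x ^ i := by rw [← zpow_add, ← zpow_add, add_comm]
    rw [h1]
    group
  rw [this]
  exact h

/-- The subgroup generated by all the conjugates. -/
def N1 (x : L) (S : Subgroup L) : Subgroup L := ⨆ i : ℤ, Sc x S i

theorem Sc_le_N1 (x : L) (S : Subgroup L) (i : ℤ) : Sc x S i ≤ N1 x S := le_iSup (Sc x S) i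

theorem N1_conj {x : L} {S : Subgroup L} (k : ℤ) {t : L} (h : t ∈ N1 x S) :
    x ^ k * t * (x ^ k)⁻¹ ∈ N1 x S := by
  have h1 : N1 x S ≤ (N1 x S).comap (MulAut.conj (x ^ k)).toMonoidHom := by
    conv_lhs => unfold N1
    apply iSup_le
    intro i s hs
    exact Sc_le_N1 x S (i + k) (mem_Sc_shift k hs)
  exact h1 h

/-- The hypotheses. -/
structure Hyp (p : ℕ) (x : L) (S : Subgroup L) : Prop where
  hp : 3 ≤ p
  comm : ∀ i : ℤ, ¬ ((p : ℤ) ∣ i) → ∀ s ∈ S, ∀ t ∈ Sc x S i, s * t = t * s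
  per : ∀ i : ℤ, ((p : ℤ) ∣ i) → Sc x S i = S
  simple : ∀ M : Subgroup L, M ≤ S → (∀ s ∈ S, ∀ m ∈ M, s * m * s⁻¹ ∈ M) → M = ⊥ ∨ M = S
  nc : ∃ a ∈ S, ∃ b ∈ S, a * b ≠ b * a

variable {p : ℕ} {x : L} {S : Subgroup L}

theorem Hyp.commute (h : Hyp p x S) {i j : ℤ} (hij : ¬ ((p : ℤ) ∣ j - i)) {s t : L}
    (hs : s ∈ Sc x S i) (ht : t ∈ Sc x S j) : s * t = t * s := by
  have h1 := mem_Sc_shift (-i) hs
  have h2 := mem_Sc_shift (-i) ht
  rw [add_neg_cancel, Sc_zero] at h1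
  rw [← sub_eq_add_neg] at h2
  have h3 := h.comm _ hij _ h1 _ h2
  have h4 : x ^ (-i) * (s * t) * (x ^ (-i))⁻¹ = x ^ (-i) * (t * s) * (x ^ (-i))⁻¹ := by
    calc x ^ (-i) * (s * t) * (x ^ (-i))⁻¹
        = x ^ (-i) * s * (x ^ (-i))⁻¹ * (x ^ (-i) * t * (x ^ (-i))⁻¹) := by group
      _ = x ^ (-i) * t * (x ^ (-i))⁻¹ * (x ^ (-i) * s * (x ^ (-i))⁻¹) := h3
      _ = x ^ (-i) * (t * s) * (x ^ (-i))⁻¹ := by group
  exact mul_left_cancel (mul_right_cancel h4)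

theorem Hyp.Sc_eq (h : Hyp p x S) {i j : ℤ} (hij : (p : ℤ) ∣ j - i) : Sc x S j = Sc x S i := by
  have h1 := h.per _ hij
  ext t
  constructor
  · intro ht
    have h2 := mem_Sc_shift (-i) ht
    rw [← sub_eq_add_neg, h1] at h2
    have h3 : x ^ (-i) * t * (x ^ (-i))⁻¹ ∈ Sc x S 0 := by rw [Sc_zero]; exact h2
    have h4 := mem_Sc_shift i h3
    rw [zero_add] at h4
    have h5 : x ^ i * (x ^ (-i) * t * (x ^ (-i))⁻¹) * (x ^ i)⁻¹ = t := by
      rw [zpow_neg]; group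
    rwa [h5] at h4
  · intro ht
    have h2 := mem_Sc_shift (-i) ht
    rw [add_neg_cancel, Sc_zero, ← h1] at h2
    have h4 := mem_Sc_shift i h2
    rw [sub_add_cancel] at h4
    have h5 : x ^ i * (x ^ (-i) * t * (x ^ (-i))⁻¹) * (x ^ i)⁻¹ = t := by
      rw [zpow_neg]; group
    rwa [h5] at h4

theorem Hyp.conj_mem (h : Hyp p x S) {n : L} (hn : n ∈ N1 x S) {i : ℤ} {t : L}
    (ht : t ∈ Sc x S i) : n * t * n⁻¹ ∈ Sc x S i := by
  have h1 : N1 x S ≤ normalizer ((Sc x S i : Subgroup L) : Set L) := by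
    unfold N1
    apply iSup_le
    intro j
    by_cases hij : (p : ℤ) ∣ j - i
    · rw [h.Sc_eq hij]
      exact le_normalizer
    · intro s hs
      rw [mem_normalizer_iff]
      intro t
      have key : ∀ u : L, u ∈ Sc x S i → s * u * s⁻¹ = u := by
        intro u hu
        rw [← h.commute hij hu hs, mul_inv_cancel_right]
      constructor
      · intro ht
        rw [key t ht]
        exact ht
      · intro ht
        have h2 := key _ ht
        have h3 : s * t * s⁻¹ = t := by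
          have h4 : s * (s * t * s⁻¹) * s⁻¹ = s * t * s⁻¹ := h2
          exact mul_left_cancel (mul_right_cancel h4)
        rwa [h3] at ht
  exact (mem_normalizer_iff.1 (h1 hn) t).1 ht

theorem Hyp.conj_mem' (h : Hyp p x S) {n : L} (hn : n ∈ N1 x S) {i : ℤ} {t : L}
    (ht : t ∈ Sc x S i) : n⁻¹ * t * n ∈ Sc x S i := by
  have := h.conj_mem ((N1 x S).inv_mem hn) ht
  rwa [inv_inv] at this

/-- The center of `S` is trivial. -/
theorem Hyp.center (h : Hyp p x S) {z : L} (hz : z ∈ S) (hc : ∀ s ∈ S, z * s = s * z) : z = 1 := by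
  have h1 := h.simple (S ⊓ centralizer (S : Set L)) inf_le_left (by
    rintro s hs m ⟨hm1, hm2⟩
    refine ⟨S.mul_mem (S.mul_mem hs hm1) (S.inv_mem hs), ?_⟩
    have hm3 := mem_centralizer_iff.1 hm2
    rw [hm3 s hs, mul_inv_cancel_right]
    exact hm2)
  rcases h1 with h1 | h1
  · have h2 : z ∈ S ⊓ centralizer (S : Set L) :=
      ⟨hz, mem_centralizer_iff.2 (fun s hs => (hc s hs).symm)⟩
    rw [h1, mem_bot] at h2
    exact h2
  · exfalso
    obtain ⟨a, ha, b, hb, hab⟩ := h.nc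
    apply hab
    have h2 : b ∈ S ⊓ centralizer (S : Set L) := by rw [h1]; exact hb
    exact mem_centralizer_iff.1 h2.2 a ha

theorem Hyp.center_Sc (h : Hyp p x S) {i : ℤ} {z : L} (hz : z ∈ Sc x S i)
    (hc : ∀ s ∈ Sc x S i, z * s = s * z) : z = 1 := by
  have h1 := mem_Sc_shift (-i) hz
  rw [add_neg_cancel, Sc_zero] at h1
  have h2 := h.center h1 (by
    intro s hs
    have h3 : s ∈ Sc x S 0 := by rw [Sc_zero]; exact hs
    have h4 := mem_Sc_shift i h3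
    rw [zero_add] at h4
    have h5 := hc _ h4
    have h6 : x ^ (-i) * (z * (x ^ i * s * (x ^ i)⁻¹)) * (x ^ (-i))⁻¹ =
        x ^ (-i) * ((x ^ i * s * (x ^ i)⁻¹) * z) * (x ^ (-i))⁻¹ := by rw [h5]
    calc x ^ (-i) * z * (x ^ (-i))⁻¹ * s
        = x ^ (-i) * (z * (x ^ i * s * (x ^ i)⁻¹)) * (x ^ (-i))⁻¹ := by rw [zpow_neg]; group
      _ = x ^ (-i) * ((x ^ i * s * (x ^ i)⁻¹) * z) * (x ^ (-i))⁻¹ := h6
      _ = s * (x ^ (-i) * z * (x ^ (-i))⁻¹) := by rw [zpow_neg]; group)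
  have h7 : z = x ^ i * (x ^ (-i) * z * (x ^ (-i))⁻¹) * (x ^ i)⁻¹ := by rw [zpow_neg]; group
  rw [h7, h2, mul_one, mul_inv_cancel]

theorem Hyp.simple_Sc (h : Hyp p x S) {i : ℤ} (M : Subgroup L) (hM : M ≤ Sc x S i)
    (hMn : ∀ s ∈ Sc x S i, ∀ m ∈ M, s * m * s⁻¹ ∈ M) : M = ⊥ ∨ M = Sc x S i := by
  have hsh : ∀ m ∈ M, x ^ (-i) * m * (x ^ (-i))⁻¹ ∈ S := by
    intro m hm
    have h1 := mem_Sc_shift (-i) (hM hm)
    rwa [add_neg_cancel, Sc_zero] at h1
  have hback : ∀ m : L, x ^ i * (x ^ (-i) * m * (x ^ (-i))⁻¹) * (x ^ i)⁻¹ = m := by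
    intro m
    rw [zpow_neg]; group
  have h2 := h.simple (M.map (MulAut.conj (x ^ (-i))).toMonoidHom) (by
    rintro _ ⟨m, hm, rfl⟩
    exact hsh m hm) (by
    rintro s hs _ ⟨m, hm, rfl⟩
    have h3 : s ∈ Sc x S 0 := by rw [Sc_zero]; exact hs
    have h4 := mem_Sc_shift i h3
    rw [zero_add] at h4
    refine ⟨_, hMn _ h4 m hm, ?_⟩
    change x ^ (-i) * (x ^ i * s * (x ^ i)⁻¹ * m * (x ^ i * s * (x ^ i)⁻¹)⁻¹) * (x ^ (-i))⁻¹ =
      s * (x ^ (-i) * m * (x ^ (-i))⁻¹) * s⁻¹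
    rw [zpow_neg]; group)
  rcases h2 with h2 | h2
  · left
    rwa [Subgroup.map_eq_bot_iff_of_injective] at h2
    exact (MulAut.conj (x ^ (-i))).injective
  · right
    apply le_antisymm hM
    intro t ht
    have h3 := mem_Sc_shift (-i) ht
    rw [add_neg_cancel, Sc_zero, ← h2] at h3
    obtain ⟨m, hm, hmt⟩ := h3
    have h4 : x ^ (-i) * m * (x ^ (-i))⁻¹ = x ^ (-i) * t * (x ^ (-i))⁻¹ := hmt
    rwa [← mul_left_cancel (mul_right_cancel h4)]

end

section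

variable {L Ω : Type*} [Group L] [MulAction L Ω]

/-- `m` and `h` induce the same map on `S_i`. -/
def Acts (x : L) (S : Subgroup L) (i : ℤ) (m h : L) : Prop :=
  ∀ t ∈ Sc x S i, m * t * m⁻¹ = h * t * h⁻¹

/-- `m` acts on `S_i` as an element of `N1` fixing `ω`. -/
def Mem (x : L) (S : Subgroup L) (ω : Ω) (i : ℤ) (m : L) : Prop :=
  ∃ h ∈ N1 x S, h • ω = ω ∧ Acts x S i m h

variable {p : ℕ} {x : L} {S : Subgroup L}

theorem Acts.refl (x : L) (S : Subgroup L) (i : ℤ) (m : L) : Acts x S i m m := fun _ _ => rfl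

theorem Acts.symm {i : ℤ} {m h : L} (hm : Acts x S i m h) : Acts x S i h m :=
  fun t ht => (hm t ht).symm

theorem Acts.trans {i : ℤ} {m h k : L} (hm : Acts x S i m h) (hk : Acts x S i h k) :
    Acts x S i m k := fun t ht => (hm t ht).trans (hk t ht)

theorem Acts.mul (H : Hyp p x S) {i : ℤ} {m h m' h' : L} (hm : Acts x S i m h)
    (hm' : Acts x S i m' h') (hh' : h' ∈ N1 x S) : Acts x S i (m * m') (h * h') := by
  intro t ht
  have h1 := hm' t ht
  have h2 := hm _ (H.conj_mem hh' ht)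
  calc m * m' * t * (m * m')⁻¹ = m * (m' * t * m'⁻¹) * m⁻¹ := by group
    _ = m * (h' * t * h'⁻¹) * m⁻¹ := by rw [h1]
    _ = h * (h' * t * h'⁻¹) * h⁻¹ := h2
    _ = h * h' * t * (h * h')⁻¹ := by group

theorem Acts.inv (H : Hyp p x S) {i : ℤ} {m h : L} (hm : Acts x S i m h)
    (hh : h ∈ N1 x S) : Acts x S i m⁻¹ h⁻¹ := by
  intro t ht
  have h1 := H.conj_mem' hh ht
  have h2 := hm _ h1
  have h3 : h * (h⁻¹ * t * h) * h⁻¹ = t := by group
  rw [h3] at h2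
  rw [inv_inv, inv_inv]
  calc m⁻¹ * t * m = m⁻¹ * (m * (h⁻¹ * t * h) * m⁻¹) * m := by rw [h2]
    _ = h⁻¹ * t * h := by group

/-- Shifting by powers of `x`. -/
theorem Acts.shift {i : ℤ} {m h : L} (k : ℤ) (hm : Acts x S i m h) :
    Acts x S (i + k) (x ^ k * m * (x ^ k)⁻¹) (x ^ k * h * (x ^ k)⁻¹) := by
  intro t ht
  have h1 := mem_Sc_shift (-k) ht
  rw [add_neg_cancel_right] at h1
  have h2 := hm _ h1
  have h3 : x ^ k * (m * (x ^ (-k) * t * (x ^ (-k))⁻¹) * m⁻¹) * (x ^ k)⁻¹ =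
      x ^ k * (h * (x ^ (-k) * t * (x ^ (-k))⁻¹) * h⁻¹) * (x ^ k)⁻¹ := by rw [h2]
  rw [zpow_neg] at h3
  calc x ^ k * m * (x ^ k)⁻¹ * t * (x ^ k * m * (x ^ k)⁻¹)⁻¹
      = x ^ k * (m * ((x ^ k)⁻¹ * t * ((x ^ k)⁻¹)⁻¹) * m⁻¹) * (x ^ k)⁻¹ := by group
    _ = x ^ k * (h * ((x ^ k)⁻¹ * t * ((x ^ k)⁻¹)⁻¹) * h⁻¹) * (x ^ k)⁻¹ := h3
    _ = x ^ k * h * (x ^ k)⁻¹ * t * (x ^ k * h * (x ^ k)⁻¹)⁻¹ := by group

theorem zpow_smul_eq {ω : Ω} (hω : x • ω = ω) (k : ℤ) : x ^ k • ω = ω := by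
  have h1 : x ∈ stabilizer L ω := hω
  exact (stabilizer L ω).zpow_mem h1 k

theorem Mem.shift {ω : Ω} (hω : x • ω = ω) {i : ℤ} {m : L} (k : ℤ) (hm : Mem x S ω i m) :
    Mem x S ω (i + k) (x ^ k * m * (x ^ k)⁻¹) := by
  obtain ⟨h, hh, hhω, hact⟩ := hm
  refine ⟨x ^ k * h * (x ^ k)⁻¹, N1_conj k hh, ?_, hact.shift k⟩
  have h1 : (x ^ k)⁻¹ • ω = ω := by
    rw [inv_smul_eq_iff, zpow_smul_eq hω]
  rw [mul_smul, mul_smul, h1, hhω, zpow_smul_eq hω]

theorem Mem.of_acts {ω : Ω} {i : ℤ} {m m' : L} (h : Mem x S ω i m) (h' : Acts x S i m' m) :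
    Mem x S ω i m' := by
  obtain ⟨k, hk, hkω, hact⟩ := h
  exact ⟨k, hk, hkω, h'.trans hact⟩

theorem Mem.inv (H : Hyp p x S) {ω : Ω} {i : ℤ} {m : L} (h : Mem x S ω i m) :
    Mem x S ω i m⁻¹ := by
  obtain ⟨k, hk, hkω, hact⟩ := h
  exact ⟨k⁻¹, (N1 x S).inv_mem hk, by rw [inv_smul_eq_iff, hkω], hact.inv H hk⟩

/-- Moving the point. -/
theorem Mem.conj (H : Hyp p x S) {ω : Ω} {i : ℤ} {m n : L} (hn : n ∈ N1 x S)
    (h : Mem x S ω i m) : Mem x S (n • ω) i (n * m * n⁻¹) := by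
  obtain ⟨k, hk, hkω, hact⟩ := h
  refine ⟨n * k * n⁻¹, (N1 x S).mul_mem ((N1 x S).mul_mem hn hk) ((N1 x S).inv_mem hn), ?_, ?_⟩
  · rw [mul_smul, mul_smul, inv_smul_smul, hkω]
  · exact (((Acts.refl x S i n).mul H hact hk).mul H (Acts.refl x S i n⁻¹) ((N1 x S).inv_mem hn))

/-- If `n` acts on `S_i` as an element of the stabiliser of `ω`, then `n • ω` and `ω` give the same
predicate. -/
theorem Mem.move (H : Hyp p x S) {ω : Ω} {i : ℤ} {m n : L} (hn : n ∈ N1 x S)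
    (hnω : Mem x S ω i n) (h : Mem x S ω i m) : Mem x S (n • ω) i m := by
  obtain ⟨g, hg, hgω, hgact⟩ := hnω
  obtain ⟨k, hk, hkω, hact⟩ := h
  -- `m` acts as `k = g (g⁻¹ k g) g⁻¹`, i.e. as `n (g⁻¹ k g) n⁻¹`
  have h1 : g⁻¹ * k * g ∈ N1 x S :=
    (N1 x S).mul_mem ((N1 x S).mul_mem ((N1 x S).inv_mem hg) hk) hg
  refine ⟨n * (g⁻¹ * k * g) * n⁻¹,
    (N1 x S).mul_mem ((N1 x S).mul_mem hn h1) ((N1 x S).inv_mem hn), ?_, ?_⟩
  · have h2 : g⁻¹ • ω = ω := by rw [inv_smul_eq_iff, hgω]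
    have h3 : (g⁻¹ * k * g) • ω = ω := by rw [mul_smul, mul_smul, hgω, hkω, h2]
    rw [mul_smul, mul_smul, inv_smul_smul, h3]
  · have h4 : Acts x S i (n * (g⁻¹ * k * g) * n⁻¹) (g * (g⁻¹ * k * g) * g⁻¹) :=
      ((hgact.mul H (Acts.refl x S i _) h1).mul H (hgact.inv H hg) ((N1 x S).inv_mem hg))
    have h5 : g * (g⁻¹ * k * g) * g⁻¹ = k := by group
    rw [h5] at h4
    exact hact.trans h4.symm

/-- The products of the conjugates of `s`. -/
def PJ (x s : L) (J : Finset ℕ) : ℕ → L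
  | 0 => 1
  | k + 1 => PJ x s J k * (if k ∈ J then x ^ (k : ℤ) * s * (x ^ (k : ℤ))⁻¹ else 1)

omit [MulAction L Ω] in
theorem sj_mem {s : L} (hs : s ∈ S) (k : ℕ) : x ^ (k : ℤ) * s * (x ^ (k : ℤ))⁻¹ ∈ Sc x S k := by
  have h1 : s ∈ Sc x S 0 := by rw [Sc_zero]; exact hs
  have h2 := mem_Sc_shift (k : ℤ) h1
  rwa [zero_add] at h2

omit [MulAction L Ω] in
theorem PJ_mem {s : L} (hs : s ∈ S) (J : Finset ℕ) (k : ℕ) : PJ x s J k ∈ N1 x S := by
  induction k with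
  | zero => exact (N1 x S).one_mem
  | succ k ih =>
    unfold PJ
    apply (N1 x S).mul_mem ih
    split_ifs
    · exact Sc_le_N1 x S _ (sj_mem hs k)
    · exact (N1 x S).one_mem

omit [MulAction L Ω] in
theorem acts_one_of_ne (H : Hyp p x S) {s : L} (hs : s ∈ S) {j k : ℕ} (hj : j < p) (hk : k < p)
    (hjk : j ≠ k) : Acts x S j (x ^ (k : ℤ) * s * (x ^ (k : ℤ))⁻¹) 1 := by
  intro t ht
  have h1 : ¬ ((p : ℤ) ∣ (k : ℤ) - j) := by
    intro h
    have h2 := Int.eq_zero_of_abs_lt_dvd h (by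
      rw [abs_lt]; constructor <;> omega)
    omega
  rw [← H.commute h1 ht (sj_mem hs k)]
  group

omit [MulAction L Ω] in
theorem PJ_acts (H : Hyp p x S) {s : L} (hs : s ∈ S) (J : Finset ℕ) {j : ℕ} (hj : j < p) (k : ℕ)
    (hk : k ≤ p) : Acts x S j (PJ x s J k)
      (if j < k ∧ j ∈ J then x ^ (j : ℤ) * s * (x ^ (j : ℤ))⁻¹ else 1) := by
  induction k with
  | zero =>
    rw [if_neg (by omega)]
    exact Acts.refl x S j 1
  | succ k ih =>
    have ih' := ih (by omega)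
    by_cases hjk : j = k
    · subst hjk
      rw [if_neg (by omega)] at ih'
      unfold PJ
      by_cases hJ : j ∈ J
      · rw [if_pos hJ, if_pos ⟨by omega, hJ⟩]
        have h1 := ih'.mul H (Acts.refl x S j (x ^ (j : ℤ) * s * (x ^ (j : ℤ))⁻¹))
          (Sc_le_N1 x S _ (sj_mem hs j))
        rwa [one_mul] at h1
      · rw [if_neg hJ, if_neg (by tauto), mul_one]
        exact ih'
    · have h0 : Acts x S j (if k ∈ J then x ^ (k : ℤ) * s * (x ^ (k : ℤ))⁻¹ else 1) 1 := by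
        split_ifs
        · exact acts_one_of_ne H hs hj (by omega) hjk
        · exact Acts.refl x S j 1
      have h1 := ih'.mul H h0 (N1 x S).one_mem
      rw [mul_one] at h1
      have h2 : (j < k + 1 ∧ j ∈ J) ↔ (j < k ∧ j ∈ J) := by
        constructor
        · rintro ⟨h3, h4⟩
          exact ⟨by omega, h4⟩
        · rintro ⟨h3, h4⟩
          exact ⟨by omega, h4⟩
      unfold PJ
      simp only [h2]
      exact h1

/-- The key property: an element of `N1` trivial on `S_{p-1}` and moving a fixed point of `x` to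
a fixed point of `x` acts on every `S_i` as an element of the stabiliser. -/
theorem mem_all (H : Hyp p x S) {ω : Ω} (hω : x • ω = ω) {n : L} (hn : n ∈ N1 x S)
    (hnω : x • n • ω = n • ω) {i0 : ℤ} (h0 : Acts x S i0 n 1) (i : ℤ) : Mem x S ω i n := by
  have key : ∀ k : ℤ, Mem x S ω i0 (x ^ k * n * (x ^ k)⁻¹) := by
    intro k
    refine ⟨n⁻¹ * (x ^ k * n * (x ^ k)⁻¹),
      (N1 x S).mul_mem ((N1 x S).inv_mem hn) (N1_conj k hn), ?_, ?_⟩
    · have h1 : (x ^ k)⁻¹ • ω = ω := by rw [inv_smul_eq_iff, zpow_smul_eq hω]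
      rw [mul_smul, mul_smul, mul_smul, h1, zpow_smul_eq hnω, inv_smul_smul]
    · have h1 : Acts x S i0 (n⁻¹ * (x ^ k * n * (x ^ k)⁻¹)) (1⁻¹ * (x ^ k * n * (x ^ k)⁻¹)) :=
        (h0.inv H (N1 x S).one_mem).mul H (Acts.refl x S i0 _) (N1_conj k hn)
      rw [inv_one, one_mul] at h1
      exact h1.symm
  have h1 := (key (i0 - i)).shift hω (-(i0 - i))
  have h2 : x ^ (-(i0 - i)) * (x ^ (i0 - i) * n * (x ^ (i0 - i))⁻¹) * (x ^ (-(i0 - i)))⁻¹ = n := by
    rw [zpow_neg]; group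
  rw [h2] at h1
  have h3 : i0 + -(i0 - i) = i := by ring
  rwa [h3] at h1

theorem typeI_inj (H : Hyp p x S) {ω ω' : Ω} (hω : x • ω = ω) (hω' : x • ω' = ω') {s s' : L}
    (hs : s ∈ S) (hs' : s' ∈ S) (hsn : ¬ Mem x S ω 0 s) {J J' : Finset ℕ}
    (hJ : J ⊆ Finset.range (p - 1)) (hJ' : J' ⊆ Finset.range (p - 1))
    (hsel : (∀ m : L, Mem x S ω 0 m ↔ Mem x S ω' 0 m) → s = s')
    (heq : PJ x s J (p - 1) • ω = PJ x s' J' (p - 1) • ω') : ω = ω' ∧ J = J' := by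
  have hp := H.hp
  set n := (PJ x s' J' (p - 1))⁻¹ * PJ x s J (p - 1) with hn
  have hnN : n ∈ N1 x S := (N1 x S).mul_mem ((N1 x S).inv_mem (PJ_mem hs' J' _)) (PJ_mem hs J _)
  have hnω : n • ω = ω' := by
    rw [hn, mul_smul, heq, inv_smul_smul]
  have hacts : ∀ j : ℕ, j < p → Acts x S j n
      ((if j < p - 1 ∧ j ∈ J' then x ^ (j : ℤ) * s' * (x ^ (j : ℤ))⁻¹ else 1)⁻¹ *
        (if j < p - 1 ∧ j ∈ J then x ^ (j : ℤ) * s * (x ^ (j : ℤ))⁻¹ else 1)) := by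
    intro j hj
    have hm : ∀ (u : L) (K : Finset ℕ), u ∈ S →
        (if j < p - 1 ∧ j ∈ K then x ^ (j : ℤ) * u * (x ^ (j : ℤ))⁻¹ else 1) ∈ N1 x S := by
      intro u K hu
      split_ifs
      · exact Sc_le_N1 x S _ (sj_mem hu j)
      · exact (N1 x S).one_mem
    exact ((PJ_acts H hs' J' hj (p - 1) (by omega)).inv H (hm s' J' hs')).mul H
      (PJ_acts H hs J hj (p - 1) (by omega)) (hm s J hs)
  have h0 : Acts x S ((p - 1 : ℕ) : ℤ) n 1 := by
    have h1 := hacts (p - 1) (by omega)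
    rw [if_neg (by omega), if_neg (by omega), inv_one, one_mul] at h1
    exact h1
  have hall : ∀ i : ℤ, Mem x S ω i n := mem_all H hω hnN (by rw [hnω, hω']) h0
  have hiff : ∀ m : L, Mem x S ω 0 m ↔ Mem x S ω' 0 m := by
    intro m
    constructor
    · intro hm
      rw [← hnω]
      exact Mem.move H hnN (hall 0) hm
    · intro hm
      have h1 : Mem x S ω' 0 n⁻¹ := by
        rw [← hnω]
        exact (Mem.move H hnN (hall 0) (hall 0)).inv H
      have h2 := Mem.move H ((N1 x S).inv_mem hnN) h1 hm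
      rwa [← hnω, inv_smul_smul] at h2
  obtain rfl := hsel hiff
  have hno : ∀ j : ℕ, j < p - 1 → ¬ Mem x S ω j (x ^ (j : ℤ) * s * (x ^ (j : ℤ))⁻¹) := by
    intro j hj hm
    apply hsn
    have h1 := hm.shift hω (-(j : ℤ))
    have h2 : x ^ (-(j : ℤ)) * (x ^ (j : ℤ) * s * (x ^ (j : ℤ))⁻¹) * (x ^ (-(j : ℤ)))⁻¹ = s := by
      rw [zpow_neg]; group
    rwa [h2, add_neg_cancel] at h1
  have hJJ : J = J' := by
    ext j
    constructor
    · intro hj
      by_contra hj'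
      have hjp := Finset.mem_range.1 (hJ hj)
      have h1 := hacts j (by omega)
      rw [if_neg (by tauto), if_pos ⟨hjp, hj⟩, inv_one, one_mul] at h1
      exact hno j hjp ((hall j).of_acts h1.symm)
    · intro hj'
      by_contra hj
      have hjp := Finset.mem_range.1 (hJ' hj')
      have h1 := hacts j (by omega)
      rw [if_pos ⟨hjp, hj'⟩, if_neg (by tauto), mul_one] at h1
      have h2 := ((hall j).of_acts h1.symm).inv H
      rw [inv_inv] at h2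
      exact hno j hjp h2
  refine ⟨?_, hJJ⟩
  rw [← hnω, hn, hJJ, inv_mul_cancel, one_smul]

theorem typeII_inter (H : Hyp p x S) {ω : Ω} (hω : x • ω = ω) (hII : ∀ s ∈ S, Mem x S ω 0 s)
    (hfix : ¬ ∀ s ∈ S, s • ω = ω) {i : ℤ} {t : L} (ht : t ∈ Sc x S i) (htω : t • ω = ω) :
    t = 1 := by
  have hIIi : ∀ s ∈ Sc x S i, Mem x S ω i s := by
    intro s hs
    have h1 := mem_Sc_shift (-i) hs
    rw [add_neg_cancel, Sc_zero] at h1
    have h2 := (hII _ h1).shift hω i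
    rw [zero_add] at h2
    have h3 : x ^ i * (x ^ (-i) * s * (x ^ (-i))⁻¹) * (x ^ i)⁻¹ = s := by
      rw [zpow_neg]; group
    rwa [h3] at h2
  have h1 := H.simple_Sc (i := i) (Sc x S i ⊓ stabilizer L ω) inf_le_left (by
    rintro s hs m ⟨hm1, hm2⟩
    refine ⟨(Sc x S i).mul_mem ((Sc x S i).mul_mem hs hm1) ((Sc x S i).inv_mem hs), ?_⟩
    obtain ⟨h, hh, hhω, hact⟩ := hIIi s hs
    have h2 := hact m hm1
    change (s * m * s⁻¹) • ω = ω
    have h3 : h⁻¹ • ω = ω := by rw [inv_smul_eq_iff, hhω]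
    have h4 : m • ω = ω := hm2
    rw [h2, mul_smul, mul_smul, h3, h4, hhω])
  rcases h1 with h1 | h1
  · have h2 : t ∈ Sc x S i ⊓ stabilizer L ω := ⟨ht, htω⟩
    rwa [h1, mem_bot] at h2
  · exfalso
    apply hfix
    intro s hs
    have h3 : s ∈ Sc x S 0 := by rw [Sc_zero]; exact hs
    have h4 := mem_Sc_shift i h3
    rw [zero_add, ← h1] at h4
    have h5 : (x ^ i * s * (x ^ i)⁻¹) • ω = ω := h4.2
    have h6 : (x ^ i)⁻¹ • ω = ω := by rw [inv_smul_eq_iff, zpow_smul_eq hω]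
    rw [mul_smul, mul_smul, h6, ← eq_inv_smul_iff, h6] at h5
    exact h5

theorem typeII_pair (H : Hyp p x S) {ω : Ω} (hω : x • ω = ω) (hII : ∀ s ∈ S, Mem x S ω 0 s)
    (hfix : ¬ ∀ s ∈ S, s • ω = ω) {a b : L} (ha : a ∈ Sc x S 0) (hb : b ∈ Sc x S 1)
    (hab : (a * b) • ω = ω) : a = 1 := by
  have hp := H.hp
  have h01 : ¬ ((p : ℤ) ∣ 1 - 0) := by
    intro h
    have := Int.le_of_dvd (by norm_num) h
    omega
  have h02 : ¬ ((p : ℤ) ∣ 2 - 0) := by
    intro h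
    have := Int.le_of_dvd (by norm_num) h
    omega
  have h12 : ¬ ((p : ℤ) ∣ 2 - 1) := by
    intro h
    have := Int.le_of_dvd (by norm_num) h
    omega
  by_contra ha1
  have hinter : ∀ {i : ℤ} {t : L}, t ∈ Sc x S i → t • ω = ω → t = 1 :=
    fun ht htω => typeII_inter H hω hII hfix ht htω
  -- the projection to `S_1` of the elements of `S_1 S_2` fixing `ω`
  let A : Subgroup L :=
    { carrier := {t | t ∈ Sc x S 1 ∧ ∃ u ∈ Sc x S 2, (t * u) • ω = ω}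
      one_mem' := ⟨(Sc x S 1).one_mem, 1, (Sc x S 2).one_mem, by rw [mul_one, one_smul]⟩
      mul_mem' := by
        rintro t t' ⟨ht, u, hu, htu⟩ ⟨ht', u', hu', htu'⟩
        refine ⟨(Sc x S 1).mul_mem ht ht', u * u', (Sc x S 2).mul_mem hu hu', ?_⟩
        have h1 : t * t' * (u * u') = t * u * (t' * u') := by
          have h2 := H.commute h12 ht' hu
          calc t * t' * (u * u') = t * (t' * u) * u' := by group
            _ = t * (u * t') * u' := by rw [h2]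
            _ = t * u * (t' * u') := by group
        rw [h1, mul_smul, htu', htu]
      inv_mem' := by
        rintro t ⟨ht, u, hu, htu⟩
        refine ⟨(Sc x S 1).inv_mem ht, u⁻¹, (Sc x S 2).inv_mem hu, ?_⟩
        have h1 : t⁻¹ * u⁻¹ = (t * u)⁻¹ := by
          rw [H.commute h12 ht hu, mul_inv_rev]
        rw [h1, inv_smul_eq_iff, htu] }
  have hAn := H.simple_Sc (i := 1) A (fun t ht => ht.1) (by
    rintro s hs m ⟨hm, u, hu, hmu⟩
    refine ⟨(Sc x S 1).mul_mem ((Sc x S 1).mul_mem hs hm) ((Sc x S 1).inv_mem hs), ?_⟩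
    have h1 := mem_Sc_shift (-1) hs
    rw [add_neg_cancel, Sc_zero] at h1
    have h2 := (hII _ h1).shift hω 1
    rw [zero_add] at h2
    have h3 : x ^ (1 : ℤ) * (x ^ (-1 : ℤ) * s * (x ^ (-1 : ℤ))⁻¹) * (x ^ (1 : ℤ))⁻¹ = s := by
      rw [zpow_neg]; group
    rw [h3] at h2
    obtain ⟨h, hh, hhω, hact⟩ := h2
    refine ⟨h * u * h⁻¹, H.conj_mem hh hu, ?_⟩
    rw [hact m hm]
    have h4 : h * m * h⁻¹ * (h * u * h⁻¹) = h * (m * u) * h⁻¹ := by group
    have h5 : h⁻¹ • ω = ω := by rw [inv_smul_eq_iff, hhω]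
    rw [h4, mul_smul, mul_smul, h5, hmu, hhω])
  -- the conjugate of `a` is in `A`
  have ha' : x ^ (1 : ℤ) * a * (x ^ (1 : ℤ))⁻¹ ∈ A := by
    have h1 := mem_Sc_shift 1 ha
    have h2 := mem_Sc_shift 1 hb
    rw [zero_add] at h1
    have h3 : (1 : ℤ) + 1 = 2 := by norm_num
    rw [h3] at h2
    refine ⟨h1, _, h2, ?_⟩
    have h4 : x ^ (1 : ℤ) * a * (x ^ (1 : ℤ))⁻¹ * (x ^ (1 : ℤ) * b * (x ^ (1 : ℤ))⁻¹) =
        x ^ (1 : ℤ) * (a * b) * (x ^ (1 : ℤ))⁻¹ := by group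
    have h5 : (x ^ (1 : ℤ))⁻¹ • ω = ω := by rw [inv_smul_eq_iff, zpow_smul_eq hω]
    rw [h4, mul_smul, mul_smul, h5, hab, zpow_smul_eq hω]
  have hA : A = Sc x S 1 := by
    rcases hAn with h | h
    · exfalso
      apply ha1
      rw [h, mem_bot] at ha'
      have h1 : a = (x ^ (1 : ℤ))⁻¹ * (x ^ (1 : ℤ) * a * (x ^ (1 : ℤ))⁻¹) * x ^ (1 : ℤ) := by group
      rw [h1, ha']; group
    · exact h
  -- `b` is central in `S_1`
  have hb1 : b = 1 := by
    apply H.center_Sc hb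
    intro t ht
    rw [← hA] at ht
    obtain ⟨ht1, u, hu, htu⟩ := ht
    have h1 : (b * t * b⁻¹ * t⁻¹) • ω = ω := by
      have h2 : b * t * b⁻¹ * t⁻¹ = a * b * (t * u) * (a * b)⁻¹ * (t * u)⁻¹ := by
        have e1 : a * t = t * a := H.commute h01 ha ht1
        have e2 : a * u = u * a := H.commute h02 ha hu
        have e3 : b * u = u * b := H.commute h12 hb hu
        have e4 : a * b = b * a := H.commute h01 ha hb
        have c1 : Commute a t := e1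
        have c2 : Commute a u := e2
        have c3 : Commute b u := e3
        have c4 : Commute a b := e4
        have c5 : Commute u t := (H.commute h12 ht1 hu).symm
        calc b * t * b⁻¹ * t⁻¹ = b * t * (b⁻¹ * t⁻¹) := by group
          _ = a * b * (t * u) * (a * b)⁻¹ * (t * u)⁻¹ := by
            have f1 : a * b * (t * u) = (b * t * u) * a := by
              rw [e4, mul_assoc b a, ← mul_assoc a t u, e1, mul_assoc t a u, e2]
              group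
            have f2 : (b * t * u) * a * (a * b)⁻¹ = b * t * u * b⁻¹ := by
              rw [e4, mul_inv_rev]; group
            have f3 : u * b⁻¹ = b⁻¹ * u := (c3.symm.inv_right).eq
            rw [f1, f2, mul_assoc (b * t) u, f3, mul_inv_rev]
            group
      have h3 : (a * b)⁻¹ • ω = ω := by rw [inv_smul_eq_iff, hab]
      have h4 : (t * u)⁻¹ • ω = ω := by rw [inv_smul_eq_iff, htu]
      rw [h2, mul_smul, mul_smul, mul_smul, h4, h3, htu, hab]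
    have h5 := hinter ((Sc x S 1).mul_mem ((Sc x S 1).mul_mem ((Sc x S 1).mul_mem hb ht1)
      ((Sc x S 1).inv_mem hb)) ((Sc x S 1).inv_mem ht1)) h1
    rw [mul_inv_eq_one, mul_inv_eq_iff_eq_mul] at h5
    exact h5
  rw [hb1, mul_one] at hab
  exact ha1 (hinter ha hab)

theorem typeII_inj (H : Hyp p x S) {ω ω' : Ω} (hω : x • ω = ω) (hω' : x • ω' = ω')
    (hII : ∀ s ∈ S, Mem x S ω 0 s) (hfix : ¬ ∀ s ∈ S, s • ω = ω) {s s' : L} (hs : s ∈ S)
    (hs' : s' ∈ S) (heq : s • ω = s' • ω') : s = s' ∧ ω = ω' := by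
  have hn : s'⁻¹ * s ∈ S := S.mul_mem (S.inv_mem hs') hs
  have hnω : (s'⁻¹ * s) • ω = ω' := by rw [mul_smul, heq, inv_smul_smul]
  have h0 : s'⁻¹ * s ∈ Sc x S 0 := by rw [Sc_zero]; exact hn
  have h1 := mem_Sc_shift 1 h0
  rw [zero_add] at h1
  have h2 : ((s'⁻¹ * s)⁻¹ * (x ^ (1 : ℤ) * (s'⁻¹ * s) * (x ^ (1 : ℤ))⁻¹)) • ω = ω := by
    have h3 : (x ^ (1 : ℤ))⁻¹ • ω = ω := by rw [inv_smul_eq_iff, zpow_smul_eq hω]
    have h4 : x ^ (1 : ℤ) • ω' = ω' := zpow_smul_eq hω' 1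
    rw [mul_smul, mul_smul, mul_smul, h3, hnω, h4, inv_smul_eq_iff, hnω]
  have h3 := typeII_pair H hω hII hfix ((Sc x S 0).inv_mem h0) h1 h2
  rw [inv_eq_one] at h3
  refine ⟨?_, ?_⟩
  · rw [inv_mul_eq_one] at h3
    exact h3.symm
  · rw [← hnω, h3, one_smul]

/-- A choice of an element of `S` outside `T`. -/
noncomputable def sel (S : Subgroup L) (T : Set L) : L :=
  open Classical in if h : ∃ s ∈ S, s ∉ T then h.choose else 1

omit [MulAction L Ω] in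
theorem sel_spec {T : Set L} (h : ∃ s ∈ S, s ∉ T) : sel S T ∈ S ∧ sel S T ∉ T := by
  classical
  unfold sel
  rw [dif_pos h]
  exact h.choose_spec

/-- The set attached to a fixed point of `x`. -/
def AS (p : ℕ) (x : L) (S : Subgroup L) (ω : Ω) : Set Ω :=
  {z | ((∀ s ∈ S, Mem x S ω 0 s) ∧ ∃ s ∈ S, s • ω = z) ∨
    ((¬ ∀ s ∈ S, Mem x S ω 0 s) ∧ ∃ J ⊆ Finset.range (p - 1),
      PJ x (sel S {m | Mem x S ω 0 m}) J (p - 1) • ω = z)}

theorem AS_disj (H : Hyp p x S) (hfix : ∀ ω : Ω, x • ω = ω → ¬ ∀ s ∈ S, s • ω = ω) {ω ω' z : Ω}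
    (hω : x • ω = ω) (hω' : x • ω' = ω') (hz : z ∈ AS p x S ω) (hz' : z ∈ AS p x S ω') :
    ω = ω' := by
  have hinv : ∀ (u : Ω) (n : L), n ∈ N1 x S → (∀ s ∈ S, Mem x S u 0 s) →
      ∀ s ∈ S, Mem x S (n • u) 0 s := by
    intro u n hn hu s hs
    have h0 : s ∈ Sc x S 0 := by rw [Sc_zero]; exact hs
    have h1 := H.conj_mem' hn h0
    rw [Sc_zero] at h1
    have h2 := (hu _ h1).conj H hn
    have h3 : n * (n⁻¹ * s * n) * n⁻¹ = s := by group
    rwa [h3] at h2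
  have hSN : ∀ s ∈ S, s ∈ N1 x S := by
    intro s hs
    apply Sc_le_N1 x S 0
    rw [Sc_zero]; exact hs
  -- each point of `AS ω` is in the `N1`-orbit of `ω`
  have horb : ∀ (u v : Ω), v ∈ AS p x S u → ∃ n ∈ N1 x S, n • u = v := by
    intro u v hv
    rcases hv with ⟨-, s, hs, rfl⟩ | ⟨hn, J, -, rfl⟩
    · exact ⟨s, hSN s hs, rfl⟩
    · push Not at hn
      exact ⟨_, PJ_mem (sel_spec (T := {m | Mem x S u 0 m}) hn).1 J _, rfl⟩
  obtain ⟨n, hn, hnz⟩ := horb ω z hz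
  obtain ⟨n', hn', hnz'⟩ := horb ω' z hz'
  have hI : ∀ s ∈ S, Mem x S ω 0 s → True := fun _ _ _ => trivial
  have htype : (∀ s ∈ S, Mem x S ω 0 s) ↔ (∀ s ∈ S, Mem x S ω' 0 s) := by
    constructor
    · intro h
      have h1 := hinv _ (n'⁻¹ * n) ((N1 x S).mul_mem ((N1 x S).inv_mem hn') hn) h
      have h2 : (n'⁻¹ * n) • ω = ω' := by rw [mul_smul, hnz, ← hnz', inv_smul_smul]
      rwa [h2] at h1
    · intro h
      have h1 := hinv _ (n⁻¹ * n') ((N1 x S).mul_mem ((N1 x S).inv_mem hn) hn') h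
      have h2 : (n⁻¹ * n') • ω' = ω := by rw [mul_smul, hnz', ← hnz, inv_smul_smul]
      rwa [h2] at h1
  rcases hz with ⟨h1, s, hs, hsz⟩ | ⟨h1, J, hJ, hJz⟩
  · rcases hz' with ⟨h2, s', hs', hsz'⟩ | ⟨h2, -⟩
    · exact (typeII_inj H hω hω' h1 (hfix ω hω) hs hs' (hsz.trans hsz'.symm)).2
    · exact absurd (htype.1 h1) h2
  · rcases hz' with ⟨h2, -⟩ | ⟨h2, J', hJ', hJz'⟩
    · exact absurd (htype.2 h2) h1
    · push Not at h1 h2
      have e1 := sel_spec (T := {m | Mem x S ω 0 m}) h1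
      have e2 := sel_spec (T := {m | Mem x S ω' 0 m}) h2
      refine (typeI_inj H hω hω' e1.1 e2.1 e1.2 hJ hJ' ?_ (hJz.trans hJz'.symm)).1
      intro h3
      have h4 : {m | Mem x S ω 0 m} = {m | Mem x S ω' 0 m} := by
        ext m
        exact h3 m
      rw [h4]

theorem AS_card [Finite L] [Finite Ω] (H : Hyp p x S)
    (hfix : ∀ ω : Ω, x • ω = ω → ¬ ∀ s ∈ S, s • ω = ω) (hS : p + 1 ≤ Nat.card S) {ω : Ω}
    (hω : x • ω = ω) : p + 1 ≤ (AS p x S ω).ncard := by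
  classical
  have hp := H.hp
  by_cases hI : ∀ s ∈ S, Mem x S ω 0 s
  · refine hS.trans ?_
    have h1 : AS p x S ω = (fun s : L => s • ω) '' (S : Set L) := by
      ext z
      constructor
      · rintro (⟨-, s, hs, rfl⟩ | ⟨h, -⟩)
        · exact ⟨s, hs, rfl⟩
        · exact absurd hI h
      · rintro ⟨s, hs, rfl⟩
        exact Or.inl ⟨hI, s, hs, rfl⟩
    rw [h1, Set.ncard_image_of_injOn]
    · rfl
    · intro s hs s' hs' hss
      exact (typeII_inj H hω hω hI (hfix ω hω) hs hs' hss).1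
  · have hI' := hI
    push Not at hI'
    have e1 := sel_spec (T := {m | Mem x S ω 0 m}) hI'
    set s0 := sel S {m | Mem x S ω 0 m} with hs0
    have h1 : AS p x S ω = (fun J : Finset ℕ => PJ x s0 J (p - 1) • ω) ''
        (((Finset.range (p - 1)).powerset : Finset (Finset ℕ)) : Set (Finset ℕ)) := by
      ext z
      constructor
      · rintro (⟨h, -⟩ | ⟨-, J, hJ, rfl⟩)
        · exact absurd h hI
        · exact ⟨J, by rw [Finset.mem_coe, Finset.mem_powerset]; exact hJ, rfl⟩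
      · rintro ⟨J, hJ, rfl⟩
        rw [Finset.mem_coe, Finset.mem_powerset] at hJ
        exact Or.inr ⟨hI, J, hJ, rfl⟩
    rw [h1, Set.ncard_image_of_injOn]
    · rw [Set.ncard_coe_finset, Finset.card_powerset, Finset.card_range]
      obtain ⟨q, rfl⟩ : ∃ q, p = q + 3 := ⟨p - 3, by omega⟩
      have h2 : ∀ q : ℕ, q + 3 + 1 ≤ 2 ^ (q + 3 - 1) := by
        intro q
        induction q with
        | zero => norm_num
        | succ q ih =>
          have h3 : q + 1 + 3 - 1 = (q + 3 - 1) + 1 := by omega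
          rw [h3, pow_succ]
          omega
      exact h2 q
    · intro J hJ J' hJ' hJJ
      rw [Finset.mem_coe, Finset.mem_powerset] at hJ hJ'
      exact (typeI_inj H hω hω e1.1 e1.1 e1.2 hJ hJ' (fun _ => rfl) hJJ).2

/-- **The main count.** -/
theorem wr_fix [Finite L] [Finite Ω] (H : Hyp p x S)
    (hfix : ∀ ω : Ω, x • ω = ω → ¬ ∀ s ∈ S, s • ω = ω) (hS : p + 1 ≤ Nat.card S) :
    (p + 1) * Nat.card (fixedBy Ω x) ≤ Nat.card Ω := by
  classical
  have : Fintype Ω := Fintype.ofFinite Ω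
  set F : Finset Ω := Finset.univ.filter fun ω => x • ω = ω with hF
  have hFc : Nat.card (fixedBy Ω x) = F.card := by
    rw [Nat.card_coe_set_eq]
    have : (fixedBy Ω x) = (F : Set Ω) := by
      ext ω
      simp [hF]
    rw [this, Set.ncard_coe_finset]
  rw [hFc]
  have h1 : (F.biUnion fun ω => (AS p x S ω).toFinset).card =
      ∑ ω ∈ F, ((AS p x S ω).toFinset).card := by
    apply Finset.card_biUnion
    intro ω hω ω' hω' hne
    rw [Function.onFun, Finset.disjoint_left]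
    intro z hz hz'
    apply hne
    rw [Set.mem_toFinset] at hz hz'
    exact AS_disj H hfix (by simpa [hF] using hω) (by simpa [hF] using hω') hz hz'
  have h2 : ∀ ω ∈ F, p + 1 ≤ ((AS p x S ω).toFinset).card := by
    intro ω hω
    have h3 := AS_card H hfix hS (ω := ω) (by simpa [hF] using hω)
    rwa [Set.ncard_eq_toFinset_card'] at h3
  calc (p + 1) * F.card = F.card • (p + 1) := by rw [smul_eq_mul, mul_comm]
    _ ≤ ∑ ω ∈ F, ((AS p x S ω).toFinset).card := Finset.card_nsmul_le_sum _ _ _ h2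
    _ = (F.biUnion fun ω => (AS p x S ω).toFinset).card := h1.symm
    _ ≤ Fintype.card Ω := Finset.card_le_univ _
    _ = Nat.card Ω := Nat.card_eq_fintype_card.symm

end

end Cfsg.Agent.H452.Wr
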