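import Cfsg.Agent.H409.FprRed
import Cfsg.Agent.H452.Wr

/-!
# Fixed point ratios of p-elements: reduction to simple groups, with exceptional simple groups
-/

set_option autoImplicit false
open Subgroup MulAction
open scoped Pointwise

namespace Cfsg.Agent.H452.FprBad

open Cfsg.Agent.H409

universe u v

section

variable {G : Type*} [Group G]

/-- `S` is normalised by `N`. -/
def NormBy (N S : Subgroup G) : Prop := ∀ n ∈ N, ∀ s ∈ S, n * s * n⁻¹ ∈ S

theorem exists_minimal (G : Type*) [Group G] [Finite G] {N : Subgroup G} (hN : N ≠ ⊥) :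
    ∃ S : Subgroup G, S ≤ N ∧ S ≠ ⊥ ∧ NormBy N S ∧
      ∀ M : Subgroup G, M ≤ S → NormBy N M → M = ⊥ ∨ M = S := by
  classical
  have hex : ∃ n : ℕ, ∃ S : Subgroup G, S ≤ N ∧ S ≠ ⊥ ∧ NormBy N S ∧ Nat.card S = n :=
    ⟨_, N, le_rfl, hN, fun n hn s hs => N.mul_mem (N.mul_mem hn hs) (N.inv_mem hn), rfl⟩
  obtain ⟨S, hSN, hS1, hSn, hSc⟩ := Nat.find_spec hex
  refine ⟨S, hSN, hS1, hSn, ?_⟩
  intro M hM hMn
  by_cases h : M = ⊥
  · exact Or.inl h
  · right
    have h1 := Nat.find_min' hex ⟨M, hM.trans hSN, h, hMn, rfl⟩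
    rw [← hSc] at h1
    exact Subgroup.eq_of_le_of_card_ge hM h1

/-- The conjugate of a subgroup. -/
def cj (g : G) (S : Subgroup G) : Subgroup G := S.map (MulAut.conj g).toMonoidHom

theorem mem_cj {g : G} {S : Subgroup G} {t : G} : t ∈ cj g S ↔ g⁻¹ * t * g ∈ S := by
  unfold cj
  constructor
  · rintro ⟨s, hs, rfl⟩
    have h : g⁻¹ * ((MulAut.conj g).toMonoidHom s) * g = s := by
      change g⁻¹ * (g * s * g⁻¹) * g = s
      group
    rw [h]
    exact hs
  · intro h
    refine ⟨_, h, ?_⟩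
    change g * (g⁻¹ * t * g) * g⁻¹ = t
    group

theorem cj_mem {g : G} {S : Subgroup G} {t : G} (h : t ∈ S) : g * t * g⁻¹ ∈ cj g S := by
  rw [mem_cj]
  have : g⁻¹ * (g * t * g⁻¹) * g = t := by group
  rwa [this]

theorem cj_card (g : G) (S : Subgroup G) : Nat.card (cj g S) = Nat.card S :=
  (Nat.card_congr (S.equivMapOfInjective _ (MulAut.conj g).injective).toEquiv).symm

theorem cj_eq_of_le [Finite G] {g : G} {S : Subgroup G} (h : cj g S ≤ S) : cj g S = S :=
  Subgroup.eq_of_le_of_card_ge h (cj_card g S).ge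

theorem cj_mul (g h : G) (S : Subgroup G) : cj (g * h) S = cj g (cj h S) := by
  ext t
  rw [mem_cj, mem_cj, mem_cj]
  have : (g * h)⁻¹ * t * (g * h) = h⁻¹ * (g⁻¹ * t * g) * h := by group
  rw [this]

theorem cj_one (S : Subgroup G) : cj 1 S = S := by
  ext t
  rw [mem_cj]
  simp

/-- The data of a minimal normal subgroup and a minimal normal subgroup of it. -/
structure MinData (N S : Subgroup G) : Prop where
  normal : N.Normal
  min : ∀ M : Subgroup G, M.Normal → M ≤ N → M = ⊥ ∨ M = N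
  le : S ≤ N
  ne : S ≠ ⊥
  norm : NormBy N S
  minS : ∀ M : Subgroup G, M ≤ S → NormBy N M → M = ⊥ ∨ M = S

variable {N S : Subgroup G}

theorem MinData.cj_le (h : MinData N S) (g : G) : cj g S ≤ N := by
  intro t ht
  rw [mem_cj] at ht
  have h1 := h.normal.conj_mem _ (h.le ht) g
  have h2 : g * (g⁻¹ * t * g) * g⁻¹ = t := by group
  rwa [h2] at h1

theorem MinData.norm_cj (h : MinData N S) (g : G) : NormBy N (cj g S) := by
  intro n hn s hs
  rw [mem_cj] at hs ⊢
  have h1 : g⁻¹ * n * g ∈ N := by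
    have := h.normal.conj_mem n hn g⁻¹
    rwa [inv_inv] at this
  have h2 := h.norm _ h1 _ hs
  have h3 : g⁻¹ * n * g * (g⁻¹ * s * g) * (g⁻¹ * n * g)⁻¹ = g⁻¹ * (n * s * n⁻¹) * g := by group
  rwa [h3] at h2

/-- Different conjugates intersect trivially. -/
theorem MinData.inter [Finite G] (h : MinData N S) {g : G} (hg : cj g S ≠ S) : S ⊓ cj g S = ⊥ := by
  have h0 : S ⊓ cj g S ≤ S := inf_le_left
  have h1 := h.minS (S ⊓ cj g S) h0 (fun n hn s hs =>
    ⟨h.norm n hn s hs.1, h.norm_cj g n hn s hs.2⟩)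
  rcases h1 with h1 | h1
  · exact h1
  · exfalso
    apply hg
    have h2 : S ≤ cj g S := by
      intro s hs
      rw [← h1] at hs
      exact hs.2
    exact (Subgroup.eq_of_le_of_card_ge h2 (cj_card g S).le).symm

/-- Different conjugates commute. -/
theorem MinData.comm [Finite G] (h : MinData N S) {g : G} (hg : cj g S ≠ S) {s t : G} (hs : s ∈ S)
    (ht : t ∈ cj g S) : s * t = t * s := by
  have h1 : s * t * s⁻¹ * t⁻¹ ∈ S ⊓ cj g S := by
    constructor
    · have h2 := h.norm t (h.cj_le g ht) s⁻¹ (S.inv_mem hs)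
      have h3 := S.mul_mem hs h2
      have h4 : s * (t * s⁻¹ * t⁻¹) = s * t * s⁻¹ * t⁻¹ := by group
      rwa [h4] at h3
    · exact (cj g S).mul_mem (h.norm_cj g s (h.le hs) t ht) ((cj g S).inv_mem ht)
  rw [h.inter hg, mem_bot] at h1
  rw [mul_inv_eq_one, mul_inv_eq_iff_eq_mul] at h1
  exact h1

/-- `N` is generated by the conjugates of `S`. -/
theorem MinData.iSup_eq (h : MinData N S) : (⨆ g : G, cj g S) = N := by
  have hn : (⨆ g : G, cj g S).Normal := by
    constructor
    intro n hn g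
    have h1 : (⨆ g : G, cj g S) ≤ (⨆ g : G, cj g S).comap (MulAut.conj g).toMonoidHom := by
      apply iSup_le
      intro k s hs
      have h2 : cj (g * k) S ≤ ⨆ g : G, cj g S := le_iSup (fun g : G => cj g S) (g * k)
      apply h2
      rw [mem_cj] at hs ⊢
      change (g * k)⁻¹ * (g * s * g⁻¹) * (g * k) ∈ S
      have h3 : (g * k)⁻¹ * (g * s * g⁻¹) * (g * k) = k⁻¹ * s * k := by group
      rwa [h3]
    exact h1 hn
  rcases h.min _ hn (iSup_le h.cj_le) with h1 | h1
  · exfalso
    apply h.ne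
    rw [eq_bot_iff, ← h1]
    have h2 := le_iSup (fun g : G => cj g S) 1
    rwa [cj_one] at h2
  · exact h1

/-- `S` is a simple group (in the form of the absence of normal subgroups). -/
theorem MinData.simple [Finite G] (h : MinData N S) (M : Subgroup G) (hM : M ≤ S)
    (hMn : ∀ s ∈ S, ∀ m ∈ M, s * m * s⁻¹ ∈ M) : M = ⊥ ∨ M = S := by
  apply h.minS M hM
  have h1 : ∀ n ∈ N, ∀ m ∈ M, n * m * n⁻¹ ∈ M := by
    intro n hn
    rw [← h.iSup_eq] at hn
    refine Subgroup.iSup_induction (fun g : G => cj g S)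
      (C := fun n => ∀ m ∈ M, n * m * n⁻¹ ∈ M) hn ?_ ?_ ?_
    · intro g t ht m hm
      by_cases hg : cj g S = S
      · rw [hg] at ht
        exact hMn t ht m hm
      · rw [← h.comm hg (hM hm) ht, mul_inv_cancel_right]
        exact hm
    · intro m hm
      simpa using hm
    · intro a b ha hb m hm
      have h2 := ha _ (hb m hm)
      have h3 : a * (b * m * b⁻¹) * a⁻¹ = a * b * m * (a * b)⁻¹ := by group
      rwa [h3] at h2
  exact h1

theorem MinData.isSimpleGroup [Finite G] (h : MinData N S) : IsSimpleGroup S := by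
  have hnt : Nontrivial S := by
    rw [Subgroup.nontrivial_iff_ne_bot]
    exact h.ne
  refine { exists_pair_ne := hnt.exists_pair_ne, eq_bot_or_eq_top_of_normal := ?_ }
  intro M hM
  have h1 := h.simple (M.map S.subtype) (map_subtype_le M) (by
    rintro s hs _ ⟨m, hm, rfl⟩
    exact ⟨_, hM.conj_mem m hm ⟨s, hs⟩, rfl⟩)
  rcases h1 with h1 | h1
  · left
    rwa [Subgroup.map_eq_bot_iff_of_injective _ (subtype_injective S)] at h1
  · right
    rw [eq_top_iff]
    intro s _
    have h2 : (s : G) ∈ M.map S.subtype := by rw [h1]; exact s.2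
    obtain ⟨m, hm, hms⟩ := h2
    rwa [← Subtype.ext (show (m : G) = s from hms)]

theorem NormBy.cj (hN : N.Normal) {M : Subgroup G} (h : NormBy N M) (g : G) :
    NormBy N (cj g M) := by
  intro n hn s hs
  rw [mem_cj] at hs ⊢
  have h1 : g⁻¹ * n * g ∈ N := by
    have := hN.conj_mem n hn g⁻¹
    rwa [inv_inv] at this
  have h2 := h _ h1 _ hs
  have h3 : g⁻¹ * n * g * (g⁻¹ * s * g) * (g⁻¹ * n * g)⁻¹ = g⁻¹ * (n * s * n⁻¹) * g := by group
  rwa [h3] at h2

theorem cj_mono {M M' : Subgroup G} (h : M ≤ M') (g : G) : cj g M ≤ cj g M' := by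
  intro t ht
  rw [mem_cj] at ht ⊢
  exact h ht

theorem cj_inv_cj (g : G) (M : Subgroup G) : cj g (cj g⁻¹ M) = M := by
  rw [← cj_mul, mul_inv_cancel, cj_one]

theorem cj_bot (g : G) : cj g (⊥ : Subgroup G) = ⊥ := by
  unfold FprBad.cj
  exact Subgroup.map_bot _

/-- The conjugates satisfy the same hypotheses. -/
theorem MinData.conj [Finite G] (h : MinData N S) (g : G) : MinData N (cj g S) := by
  refine ⟨h.normal, h.min, h.cj_le g, ?_, h.norm_cj g, ?_⟩
  · intro h1
    apply h.ne
    rw [← cj_inv_cj g⁻¹ S, inv_inv, h1, cj_bot]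
  · intro M hM hMn
    have h1 : cj g⁻¹ M ≤ S := by
      have := cj_mono hM g⁻¹
      rwa [← cj_mul, inv_mul_cancel, cj_one] at this
    rcases h.minS _ h1 (hMn.cj h.normal g⁻¹) with h2 | h2
    · left
      rw [← cj_inv_cj g M, h2, cj_bot]
    · right
      rw [← cj_inv_cj g M, h2]

/-- If `S` is abelian, then `N` is abelian. -/
theorem MinData.abelian [Finite G] (h : MinData N S) (hS : ∀ a ∈ S, ∀ b ∈ S, a * b = b * a) :
    ∀ a ∈ N, ∀ b ∈ N, a * b = b * a := by
  have key : ∀ {S' : Subgroup G}, MinData N S' → (∀ a ∈ S', ∀ b ∈ S', a * b = b * a) →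
      (∀ g : G, ∃ k : G, cj g S = cj k S') → ∀ a ∈ S', ∀ b ∈ N, a * b = b * a := by
    intro S' h' hS' hk a ha b hb
    rw [← h.iSup_eq] at hb
    refine Subgroup.iSup_induction (fun g : G => cj g S)
      (C := fun b => a * b = b * a) hb ?_ ?_ ?_
    · intro g t ht
      obtain ⟨k, hk⟩ := hk g
      rw [hk] at ht
      by_cases hg : cj k S' = S'
      · rw [hg] at ht
        exact hS' a ha t ht
      · exact h'.comm hg ha ht
    · simp
    · intro b c hb hc
      rw [← mul_assoc, hb, mul_assoc, hc, mul_assoc]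
  intro a ha b hb
  rw [← h.iSup_eq] at ha
  refine Subgroup.iSup_induction (fun g : G => cj g S)
    (C := fun a => a * b = b * a) ha ?_ ?_ ?_
  · intro g t ht
    refine key (h.conj g) ?_ ?_ t ht b hb
    · intro u hu v hv
      rw [mem_cj] at hu hv
      have h1 := hS _ hu _ hv
      have h2 : u * v = g * (g⁻¹ * u * g * (g⁻¹ * v * g)) * g⁻¹ := by group
      rw [h2, h1]
      group
    · intro k
      exact ⟨k * g⁻¹, by rw [← cj_mul, inv_mul_cancel_right]⟩
  · simp
  · intro c d hc hd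
    rw [mul_assoc, hd, ← mul_assoc, hc, mul_assoc]

/-- `N = S C_N(S)`. -/
theorem MinData.decomp [Finite G] (h : MinData N S) {n : G} (hn : n ∈ N) :
    ∃ s ∈ S, ∃ c ∈ N, (∀ t ∈ S, t * c = c * t) ∧ n = s * c := by
  rw [← h.iSup_eq] at hn
  refine Subgroup.iSup_induction (fun g : G => cj g S)
    (C := fun n => ∃ s ∈ S, ∃ c ∈ N, (∀ t ∈ S, t * c = c * t) ∧ n = s * c) hn ?_ ?_ ?_
  · intro g t ht
    by_cases hg : cj g S = S
    · rw [hg] at ht
      exact ⟨t, ht, 1, N.one_mem, by simp, by simp⟩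
    · exact ⟨1, S.one_mem, t, h.cj_le g ht, fun u hu => h.comm hg hu ht, by simp⟩
  · exact ⟨1, S.one_mem, 1, N.one_mem, by simp, by simp⟩
  · rintro _ _ ⟨s, hs, c, hc, hcs, rfl⟩ ⟨s', hs', c', hc', hcs', rfl⟩
    refine ⟨s * s', S.mul_mem hs hs', c * c', N.mul_mem hc hc', ?_, ?_⟩
    · intro t ht
      rw [← mul_assoc, hcs t ht, mul_assoc, hcs' t ht, mul_assoc]
    · calc s * c * (s' * c') = s * (c * s') * c' := by group
        _ = s * (s' * c) * c' := by rw [hcs s' hs']
        _ = s * s' * (c * c') := by group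

/-- The order of a simple factor of a group generated by its `p`-elements. -/
theorem MinData.dvd_card [Finite G] {p : ℕ} [Fact p.Prime] (h : MinData N S) (hpg : PG p N)
    (hS : ∃ a ∈ S, ∃ b ∈ S, a * b ≠ b * a) : p ∣ Nat.card S := by
  by_contra hcon
  -- all elements centralise `S`
  have hall : ∀ n : N, ∀ t ∈ S, t * (n : G) = n * t := by
    intro n
    have h1 : n ∈ Subgroup.closure {g : N | ∃ k : ℕ, orderOf g = p ^ k} := by
      rw [(show Subgroup.closure _ = ⊤ from hpg)]
      trivial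
    refine Subgroup.closure_induction (p := fun (n : N) _ => ∀ t ∈ S, t * (n : G) = (n : G) * t)
      ?_ ?_ ?_ ?_ h1
    · rintro x ⟨k, hk⟩
      obtain ⟨s, hs, c, hc, hcs, hx⟩ := h.decomp x.2
      -- `x ^ m ∈ s ^ m * c ^ m`
      have hcomm : Commute s c := hcs s hs
      have hpow : ∀ m : ℕ, (x : G) ^ m = s ^ m * c ^ m := by
        intro m
        rw [hx, hcomm.mul_pow]
      -- the order of `s`
      have hx1 : (x : G) ^ (p ^ k) = 1 := by
        have := pow_orderOf_eq_one x
        rw [hk] at this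
        exact_mod_cast congrArg (fun y : N => (y : G)) this
      have hsk : s ^ (p ^ k) * c ^ (p ^ k) = 1 := by rw [← hpow]; exact hx1
      -- `s ^ (p^k)` is central in `S`
      have hcen : ∀ t ∈ S, t * s ^ (p ^ k) = s ^ (p ^ k) * t := by
        intro t ht
        have h2 : s ^ (p ^ k) = (c ^ (p ^ k))⁻¹ := eq_inv_of_mul_eq_one_left hsk
        rw [h2]
        have h3 : Commute t c := hcs t ht
        exact ((h3.pow_right _).inv_right).eq
      -- the centre of `S` is trivial
      have hcen1 : s ^ (p ^ k) = 1 := by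
        have h2 := h.simple (S ⊓ Subgroup.centralizer (S : Set G)) (by
          intro g hg
          exact hg.1) (by
          rintro a ha m ⟨hm1, hm2⟩
          have h3 : a * m * a⁻¹ = m := by
            rw [(mem_centralizer_iff.1 hm2 a ha), mul_inv_cancel_right]
          rw [h3]
          exact ⟨hm1, hm2⟩)
        rcases h2 with h2 | h2
        · have h3 : s ^ (p ^ k) ∈ S ⊓ Subgroup.centralizer (S : Set G) :=
            ⟨S.pow_mem hs _, mem_centralizer_iff.2 hcen⟩
          rwa [h2, mem_bot] at h3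
        · exfalso
          obtain ⟨a, ha, b, hb, hab⟩ := hS
          rw [← h2] at hb
          exact hab (mem_centralizer_iff.1 hb.2 a ha)
      have hs1 : s = 1 := by
        have h2 : orderOf s ∣ p ^ k := orderOf_dvd_of_pow_eq_one hcen1
        have h3 : orderOf s ∣ Nat.card S := by
          have := orderOf_dvd_natCard (⟨s, hs⟩ : S)
          rwa [Subgroup.orderOf_mk] at this
        have h4 : (p ^ k).Coprime (Nat.card S) :=
          ((Nat.Prime.coprime_iff_not_dvd Fact.out).2 hcon).pow_left k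
        have h5 := Nat.dvd_gcd h2 h3
        rw [h4.gcd_eq_one, Nat.dvd_one, orderOf_eq_one_iff] at h5
        exact h5
      intro t ht
      rw [hx, hs1, one_mul]
      exact hcs t ht
    · intro t ht
      simp
    · intro a b _ _ ha hb t ht
      rw [Subgroup.coe_mul, ← mul_assoc, ha t ht, mul_assoc, hb t ht, mul_assoc]
    · intro a _ ha t ht
      rw [Subgroup.coe_inv]
      have h2 : Commute t (a : G) := ha t ht
      exact h2.inv_right.eq
  obtain ⟨a, ha, b, hb, hab⟩ := hS
  exact hab (hall ⟨b, h.le hb⟩ a ha)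

/-- The simple quotients of `N` are isomorphic to `S`. -/
theorem MinData.quot_equiv [Finite G] (h : MinData N S) (M : Subgroup N) [M.Normal]
    (hM : IsSimpleGroup (N ⧸ M)) : Nonempty (S ≃* N ⧸ M) := by
  classical
  -- some conjugate is not contained in `M`
  obtain ⟨g, hg⟩ : ∃ g : G, ¬ cj g S ≤ M.map N.subtype := by
    by_contra hcon
    push Not at hcon
    have h1 : N ≤ M.map N.subtype := by
      conv_lhs => rw [← h.iSup_eq]
      exact iSup_le hcon
    have h2 : M = ⊤ := by
      rw [eq_top_iff]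
      intro n _
      obtain ⟨m, hm, hmn⟩ := h1 n.2
      rwa [← Subtype.ext (show (m : G) = n from hmn)]
    have h3 : Subsingleton (N ⧸ M) := by
      rw [h2]
      exact QuotientGroup.subsingleton_quotient_top
    have h4 := hM.exists_pair_ne
    obtain ⟨a, b, hab⟩ := h4
    exact hab (Subsingleton.elim _ _)
  have hmin := h.conj g
  have hint : cj g S ⊓ M.map N.subtype = ⊥ := by
    rcases hmin.minS (cj g S ⊓ M.map N.subtype) (by intro a ha; exact ha.1) (by
      rintro n hn s ⟨hs1, hs2⟩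
      refine ⟨hmin.norm n hn s hs1, ?_⟩
      obtain ⟨m, hm, rfl⟩ := hs2
      exact ⟨_, (inferInstance : M.Normal).conj_mem m hm ⟨n, hn⟩, rfl⟩) with h1 | h1
    · exact h1
    · exfalso
      apply hg
      intro a ha
      rw [← h1] at ha
      exact ha.2
  -- the map
  let f : (cj g S) →* N ⧸ M := (QuotientGroup.mk' M).comp (Subgroup.inclusion (h.cj_le g))
  have hf1 : Function.Injective f := by
    rw [injective_iff_map_eq_one]
    intro s hs
    have h1 : (Subgroup.inclusion (h.cj_le g) s) ∈ M := by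
      rw [← QuotientGroup.eq_one_iff]
      exact hs
    have h2 : (s : G) ∈ cj g S ⊓ M.map N.subtype := ⟨s.2, ⟨_, h1, rfl⟩⟩
    rw [hint, mem_bot] at h2
    exact Subtype.ext h2
  have hf2 : f.range = ⊤ := by
    have hn : f.range.Normal := by
      constructor
      rintro _ ⟨s, rfl⟩ y
      obtain ⟨y, rfl⟩ := QuotientGroup.mk_surjective y
      refine ⟨⟨(y : G) * s * (y : G)⁻¹, hmin.norm y y.2 s s.2⟩, ?_⟩
      rfl
    rcases hM.eq_bot_or_eq_top_of_normal _ hn with h1 | h1
    · exfalso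
      apply hmin.ne
      rw [eq_bot_iff]
      intro s hs
      have h2 : f ⟨s, hs⟩ ∈ f.range := ⟨_, rfl⟩
      rw [h1, mem_bot] at h2
      have h3 := (injective_iff_map_eq_one f).1 hf1 _ h2
      exact congrArg (fun y : cj g S => (y : G)) h3
    · exact h1
  let e1 : S ≃* cj g S := S.equivMapOfInjective _ (MulAut.conj g).injective
  exact ⟨e1.trans (MulEquiv.ofBijective f ⟨hf1, MonoidHom.range_eq_top.1 hf2⟩)⟩

theorem MinData.center [Finite G] (h : MinData N S) (hS : ∃ a ∈ S, ∃ b ∈ S, a * b ≠ b * a)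
    {z : G} (hz : z ∈ S) (hc : ∀ t ∈ S, t * z = z * t) : z = 1 := by
  have h2 := h.simple (S ⊓ Subgroup.centralizer (S : Set G)) (by
    intro g hg
    exact hg.1) (by
    rintro a ha m ⟨hm1, hm2⟩
    have h3 : a * m * a⁻¹ = m := by
      rw [(mem_centralizer_iff.1 hm2 a ha), mul_inv_cancel_right]
    rw [h3]
    exact ⟨hm1, hm2⟩)
  rcases h2 with h2 | h2
  · have h3 : z ∈ S ⊓ Subgroup.centralizer (S : Set G) := ⟨hz, mem_centralizer_iff.2 hc⟩
    rwa [h2, mem_bot] at h3
  · exfalso
    obtain ⟨a, ha, b, hb, hab⟩ := hS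
    rw [← h2] at hb
    exact hab (mem_centralizer_iff.1 hb.2 a ha)

/-- Elements of `p`-power order normalising `S`. -/
theorem exists_hyp [Finite G] {p : ℕ} [Fact p.Prime] (hp2 : p ≠ 2) (h : MinData N S)
    (hS : ∃ a ∈ S, ∃ b ∈ S, a * b ≠ b * a) {x : G} (hx : ∃ k : ℕ, orderOf x = p ^ k)
    (hxS : cj x S ≠ S) : ∃ y : G, (∃ k : ℕ, orderOf y = p ^ k) ∧ Wr.Hyp p y S := by
  classical
  have hp : p.Prime := Fact.out
  have hex : ∃ j : ℕ, cj (x ^ p ^ j) S = S := by
    obtain ⟨k, hk⟩ := hx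
    exact ⟨k, by rw [← hk, pow_orderOf_eq_one, cj_one]⟩
  obtain ⟨j, hj⟩ : ∃ j, Nat.find hex = j := ⟨_, rfl⟩
  have hj1 : cj (x ^ p ^ j) S = S := by rw [← hj]; exact Nat.find_spec hex
  have hj2 : ∀ i < j, cj (x ^ p ^ i) S ≠ S := by
    intro i hi
    rw [← hj] at hi
    exact Nat.find_min hex hi
  obtain ⟨j, rfl⟩ : ∃ i, j = i + 1 := by
    cases j with
    | zero => simp at hj1; exact absurd hj1 hxS
    | succ i => exact ⟨i, rfl⟩
  set y := x ^ p ^ j with hy
  have hy1 : cj y S ≠ S := hj2 j (Nat.lt_succ_self j)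
  have hy2 : cj (y ^ p) S = S := by
    rw [hy, ← pow_mul, ← pow_succ]
    exact hj1
  -- the stabiliser of `S`
  let St : Subgroup G :=
    { carrier := {g | cj g S = S}
      mul_mem' := by
        intro a b ha hb
        change cj (a * b) S = S
        rw [cj_mul, show cj b S = S from hb, show cj a S = S from ha]
      one_mem' := cj_one S
      inv_mem' := by
        intro a ha
        change cj a⁻¹ S = S
        conv_lhs => rw [← (show cj a S = S from ha)]
        rw [← cj_mul, inv_mul_cancel, cj_one] }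
  have hper : ∀ i : ℤ, (p : ℤ) ∣ i → y ^ i ∈ St := by
    rintro i ⟨c, rfl⟩
    rw [zpow_mul, zpow_natCast]
    exact St.zpow_mem hy2 c
  refine ⟨y, ?_, ?_, ?_, ?_, ?_, hS⟩
  · obtain ⟨k, hk⟩ := hx
    have h1 : orderOf y ∣ p ^ k := by
      rw [← hk]
      exact orderOf_pow_dvd _
    obtain ⟨i, -, hi⟩ := (Nat.dvd_prime_pow hp).1 h1
    exact ⟨i, hi⟩
  · have := hp.two_le
    omega
  · intro i hi s hs t ht
    refine h.comm (g := y ^ i) ?_ hs ht
    intro h1
    apply hy1
    have h2 : IsCoprime (p : ℤ) i := by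
      rw [Int.isCoprime_iff_gcd_eq_one]
      have h3 : ¬ p ∣ i.natAbs := by
        intro h4
        exact hi (Int.natCast_dvd.2 h4)
      exact (Nat.Prime.coprime_iff_not_dvd hp).2 h3
    obtain ⟨a, b, hab⟩ := h2
    have h3 : y = (y ^ (p : ℤ)) ^ a * (y ^ i) ^ b := by
      rw [← zpow_mul, ← zpow_mul, ← zpow_add]
      conv_lhs => rw [← zpow_one y, ← hab]
      congr 1
      ring
    have h4 : y ∈ St := by
      rw [h3]
      exact St.mul_mem (St.zpow_mem (hper p (dvd_refl _)) a) (St.zpow_mem h1 b)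
    exact h4
  · intro i hi
    exact hper i hi
  · exact h.simple

/-- The case in which all `p`-elements normalise the bad factor. -/
theorem bad_quot {G : Type u} [Group G] [Finite G] {p : ℕ} [Fact p.Prime] {N S : Subgroup G}
    (h : MinData N S) (hPG : PG p G) (Bad : ∀ (S : Type u) [Group S], Prop)
    (hiso : ∀ (S S' : Type u) [Group S] [Group S'], (S ≃* S') → Bad S → Bad S')
    (hout : ∀ (S : Type u) [Group S] [Finite S], IsSimpleGroup S → (∃ x y : S, x * y ≠ y * x) →
      Bad S → ∀ φ : MulAut S, (∃ k : ℕ, orderOf φ = p ^ k) →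
        φ ∈ (MulAut.conj : S →* MulAut S).range)
    (hS : ∃ a ∈ S, ∃ b ∈ S, a * b ≠ b * a) (hbad : Bad S)
    (hall : ∀ x : G, (∃ k : ℕ, orderOf x = p ^ k) → cj x S = S) :
    ∃ (C : Subgroup G) (_ : C.Normal), IsSimpleGroup (G ⧸ C) ∧ Bad (G ⧸ C) := by
  classical
  have hp : p.Prime := Fact.out
  -- `S` is normal
  have hnorm : S.Normal := by
    have h1 : ∀ g : G, cj g S = S := by
      intro g
      have h1 : g ∈ Subgroup.closure {g : G | ∃ k : ℕ, orderOf g = p ^ k} := by
        rw [(show Subgroup.closure _ = ⊤ from hPG)]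
        trivial
      refine Subgroup.closure_induction (p := fun (g : G) _ => cj g S = S) ?_ ?_ ?_ ?_ h1
      · intro x hx
        exact hall x hx
      · exact cj_one S
      · intro a b _ _ ha hb
        rw [cj_mul, hb, ha]
      · intro a _ ha
        conv_lhs => rw [← ha]
        rw [← cj_mul, inv_mul_cancel, cj_one]
    constructor
    intro s hs g
    have := cj_mem (g := g) hs
    rwa [h1 g] at this
  set C := Subgroup.centralizer (S : Set G) with hC
  have hCn : C.Normal := by rw [hC]; infer_instance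
  have hsimple := h.isSimpleGroup
  have hcomm : ∃ x y : S, x * y ≠ y * x := by
    obtain ⟨a, ha, b, hb, hab⟩ := hS
    exact ⟨⟨a, ha⟩, ⟨b, hb⟩, fun h1 => hab (congrArg (fun y : S => (y : G)) h1)⟩
  let f : S →* G ⧸ C := (QuotientGroup.mk' C).comp S.subtype
  have hf1 : Function.Injective f := by
    rw [injective_iff_map_eq_one]
    intro s hs
    have h1 : (s : G) ∈ C := by
      rw [← QuotientGroup.eq_one_iff]
      exact hs
    apply Subtype.ext
    exact h.center hS s.2 (mem_centralizer_iff.1 h1)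
  have hf2 : f.range = ⊤ := by
    rw [eq_top_iff]
    have h0 := hPG.of_surjective hp (QuotientGroup.mk'_surjective C)
    rw [← (show Subgroup.closure _ = ⊤ from h0), closure_le]
    intro x hx
    obtain ⟨y, rfl, k, hk⟩ := exists_lift hp (QuotientGroup.mk'_surjective C) hx
    have h1 : ∃ k : ℕ, orderOf (MulAut.conjNormal y : MulAut S) = p ^ k := by
      have h2 : orderOf (MulAut.conjNormal y : MulAut S) ∣ p ^ k := by
        rw [← hk]
        exact orderOf_map_dvd _ y
      obtain ⟨i, -, hi⟩ := (Nat.dvd_prime_pow hp).1 h2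
      exact ⟨i, hi⟩
    obtain ⟨s, hs⟩ := hout S hsimple hcomm hbad _ h1
    refine ⟨s, ?_⟩
    change ((s : G) : G ⧸ C) = (y : G ⧸ C)
    rw [QuotientGroup.eq, hC, mem_centralizer_iff]
    intro t ht
    have h2 := DFunLike.congr_fun hs ⟨t, ht⟩
    have h3 : (s : G) * t * (s : G)⁻¹ = y * t * y⁻¹ := congrArg (fun y : S => (y : G)) h2
    have h4 : t = (s : G)⁻¹ * (y * t * y⁻¹) * s := by
      rw [← h3]; group
    calc t * ((s : G)⁻¹ * y) = ((s : G)⁻¹ * (y * t * y⁻¹) * s) * ((s : G)⁻¹ * y) := by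
          rw [← h4]
      _ = (s : G)⁻¹ * y * t := by group
  let e : S ≃* G ⧸ C := MulEquiv.ofBijective f ⟨hf1, MonoidHom.range_eq_top.1 hf2⟩
  refine ⟨C, hCn, ?_, hiso _ _ e hbad⟩
  have hnt : Nontrivial (G ⧸ C) := e.symm.toEquiv.nontrivial
  exact IsSimpleGroup.isSimpleGroup_of_surjective f (MonoidHom.range_eq_top.1 hf2)

end

/-- **Theorem B.** Reduction of the bound `1/(p+1)` to simple groups, with exceptional simple
groups. -/
theorem row_of_simple_bad' {p : ℕ} [Fact p.Prime] (hp2 : p ≠ 2)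
    (Bad : ∀ (S : Type u) [Group S], Prop)
    (hiso : ∀ (S S' : Type u) [Group S] [Group S'], (S ≃* S') → Bad S → Bad S')
    (hout : ∀ (S : Type u) [Group S] [Finite S], IsSimpleGroup S → (∃ x y : S, x * y ≠ y * x) →
      Bad S → ∀ φ : MulAut S, (∃ k : ℕ, orderOf φ = p ^ k) →
        φ ∈ (MulAut.conj : S →* MulAut S).range)
    (hrow : ∀ (S : Type u) [Group S] [Finite S], IsSimpleGroup S → (∃ x y : S, x * y ≠ y * x) →
      p ∣ Nat.card S → ¬ Bad S → FprRow (p + 1) 1 p S) (n : ℕ) :
    ∀ (G : Type u) [Group G] [Finite G], Nat.card G = n → PG p G →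
      (∀ (N : Subgroup G) [N.Normal], IsSimpleGroup (G ⧸ N) → ¬ Bad (G ⧸ N)) →
      FprRow (p + 1) 1 p G := by
  classical
  have hp : p.Prime := Fact.out
  induction n using Nat.strong_induction_on with
  | _ n ih =>
  intro G _ _ hGn hG hbad H hH
  have hnt : Nontrivial G := by
    by_contra h
    rw [not_nontrivial_iff_subsingleton] at h
    exact hH (Subsingleton.elim _ _)
  obtain ⟨N, hN, hN1, hmin⟩ := exists_min_normal G
  by_cases hNH : N ⊔ H = ⊤
  swap
  · -- pass to `G/N`
    have hf : Function.Surjective (QuotientGroup.mk' N) := QuotientGroup.mk'_surjective N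
    have hcard : Nat.card (G ⧸ N) < n := by
      rw [← hGn, ← N.index_mul_card]
      change N.index < N.index * Nat.card N
      have h1 : 1 < Nat.card N := by
        rw [Subgroup.one_lt_card_iff_ne_bot]
        exact hN1
      have h2 : 0 < N.index := Nat.pos_of_ne_zero index_ne_zero_of_finite
      nlinarith
    have hK : (N ⊔ H).map (QuotientGroup.mk' N) ≠ ⊤ := by
      intro h
      apply hNH
      have h1 := congrArg (fun L : Subgroup (G ⧸ N) => L.comap (QuotientGroup.mk' N)) h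
      simp only [comap_top] at h1
      rw [comap_map_eq, QuotientGroup.ker_mk', sup_right_comm, sup_idem] at h1
      exact h1
    have hbad' : ∀ (M : Subgroup (G ⧸ N)) [M.Normal], IsSimpleGroup ((G ⧸ N) ⧸ M) →
        ¬ Bad ((G ⧸ N) ⧸ M) := by
      intro M _ hM hB
      let f : G →* (G ⧸ N) ⧸ M := (QuotientGroup.mk' M).comp (QuotientGroup.mk' N)
      have hfs : Function.Surjective f :=
        (QuotientGroup.mk'_surjective M).comp (QuotientGroup.mk'_surjective N)
      let e : G ⧸ f.ker ≃* (G ⧸ N) ⧸ M := QuotientGroup.quotientKerEquivOfSurjective f hfs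
      have : Nontrivial (G ⧸ f.ker) := by
        have := hM.toNontrivial
        exact e.toEquiv.nontrivial
      have hs : IsSimpleGroup (G ⧸ f.ker) :=
        IsSimpleGroup.isSimpleGroup_of_surjective e.symm.toMonoidHom e.symm.surjective
      exact hbad f.ker hs (hiso _ _ e.symm hB)
    obtain ⟨x, hx, hle⟩ := ih _ hcard (G ⧸ N) rfl (hG.of_surjective hp hf) hbad' _ hK
    obtain ⟨y, rfl, hy⟩ := exists_lift hp hf hx
    refine ⟨y, hy, ?_⟩
    set K := (N ⊔ H).map (QuotientGroup.mk' N) with hKdef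
    let φ : (G ⧸ H) → ((G ⧸ N) ⧸ K) := Quotient.map' (QuotientGroup.mk' N) (fun g g' hg => by
      rw [QuotientGroup.leftRel_apply] at hg ⊢
      rw [← map_inv, ← map_mul]
      exact mem_map_of_mem _ ((le_sup_right : H ≤ N ⊔ H) hg))
    refine fix_le_of_map (Ω := G ⧸ H) (QuotientGroup.mk' N) hf φ ?_ y hle
    intro g w
    obtain ⟨w, rfl⟩ := QuotientGroup.mk_surjective w
    change ((((g * w : G) : G ⧸ N)) : (G ⧸ N) ⧸ K) = (((g : G ⧸ N) * (w : G ⧸ N) : G ⧸ N) :
      (G ⧸ N) ⧸ K)
    rfl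
  have hdec : ∀ g : G, ∃ k ∈ N, ∃ h ∈ H, k * h = g := by
    intro g
    have h1 : g ∈ ((N ⊔ H : Subgroup G) : Set G) := by
      rw [hNH]; trivial
    rw [Subgroup.normal_mul] at h1
    obtain ⟨k, hk, h, hh, hkh⟩ := h1
    exact ⟨k, hk, h, hh, hkh⟩
  -- `N` is transitive
  have htr : ∀ y z : G ⧸ H, ∃ k ∈ N, k • y = z := by
    intro y z
    obtain ⟨y, rfl⟩ := QuotientGroup.mk_surjective y
    obtain ⟨z, rfl⟩ := QuotientGroup.mk_surjective z
    obtain ⟨k, hk, h, hh, rfl⟩ := hdec y
    obtain ⟨k', hk', h', hh', rfl⟩ := hdec z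
    refine ⟨k' * k⁻¹, N.mul_mem hk' (N.inv_mem hk), ?_⟩
    change ((k' * k⁻¹ * (k * h) : G) : G ⧸ H) = ((k' * h' : G) : G ⧸ H)
    rw [QuotientGroup.eq]
    have h1 : (k' * k⁻¹ * (k * h))⁻¹ * (k' * h') = h⁻¹ * h' := by group
    rw [h1]
    exact H.mul_mem (H.inv_mem hh) hh'
  have : Nontrivial (G ⧸ H) := by
    rw [← Finite.one_lt_card_iff_nontrivial]
    change 1 < H.index
    exact Subgroup.one_lt_index_of_ne_top hH
  by_cases hpN : p ∣ Nat.card N
  swap
  · -- `N` is a `p'`-group
    obtain ⟨x, hx, hxH⟩ := hG.exists_notMem hH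
    refine ⟨x, hx, ?_⟩
    have h1 : (p + 1) * Nat.card (fixedBy (G ⧸ H) x) ≤ Nat.card (G ⧸ H) := by
      refine coprime_fix hpN hx ?_ htr ⟨((1 : G) : G ⧸ H), ?_⟩
      · rw [Subgroup.normalizer_eq_top_iff.2 hN]
        trivial
      · intro h
        have h2 : ((x * 1 : G) : G ⧸ H) = ((1 : G) : G ⧸ H) := h
        rw [mul_one, eq_comm, QuotientGroup.eq, inv_one, one_mul] at h2
        exact hxH h2
    rw [one_mul]
    exact h1
  -- `N` is generated by its `p`-elements
  have hopp : opp p N = N := by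
    rcases hmin _ (opp_normal hN) (opp_le N) with h | h
    · exact absurd h (opp_ne_bot hp hpN)
    · exact h
  have hNPG : PG p N := PG_of_opp hopp
  obtain ⟨S, hSN, hS1, hSn, hSm⟩ := exists_minimal G hN1
  have hD : MinData N S := ⟨hN, hmin, hSN, hS1, hSn, hSm⟩
  by_cases hnc : ∃ a ∈ S, ∃ b ∈ S, a * b ≠ b * a
  swap
  · -- `N` is abelian
    push Not at hnc
    have hab := hD.abelian hnc
    have hNH' : H.subgroupOf N ≠ ⊤ := by
      intro h
      apply hH
      rw [subgroupOf_eq_top] at h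
      rw [← hNH]
      exact (sup_eq_right.2 h).symm
    obtain ⟨x, ⟨k, hk⟩, hxH⟩ := hNPG.exists_notMem hNH'
    refine ⟨x, ⟨k, by rw [Subgroup.orderOf_coe]; exact hk⟩, ?_⟩
    have h1 : fixedBy (G ⧸ H) (x : G) = ∅ := by
      rw [Set.eq_empty_iff_forall_notMem]
      intro w hw
      obtain ⟨w, rfl⟩ := QuotientGroup.mk_surjective w
      obtain ⟨m, hm, h, hh, rfl⟩ := hdec w
      have h2 : ((x * (m * h) : G) : G ⧸ H) = ((m * h : G) : G ⧸ H) := hw
      rw [eq_comm, QuotientGroup.eq] at h2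
      have h3 : (m * h)⁻¹ * (x * (m * h)) = h⁻¹ * (m⁻¹ * (x * m)) * h := by group
      rw [h3, hab x x.2 m hm, inv_mul_cancel_left] at h2
      apply hxH
      rw [mem_subgroupOf]
      have h4 : (x : G) = h * (h⁻¹ * x * h) * h⁻¹ := by group
      rw [h4]
      exact H.mul_mem (H.mul_mem hh h2) (H.inv_mem hh)
    rw [h1]
    simp
  have hncS : ∃ x y : S, x * y ≠ y * x := by
    obtain ⟨a, ha, b, hb, hab⟩ := hnc
    exact ⟨⟨a, ha⟩, ⟨b, hb⟩, fun h1 => hab (congrArg (fun y : S => (y : G)) h1)⟩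
  have hpS : p ∣ Nat.card S := hD.dvd_card hNPG hnc
  by_cases hB : Bad S
  swap
  · by_cases hNtop : N = ⊤
    swap
    · have hlt : Nat.card N < n := by
        rw [← hGn]
        exact lt_of_le_of_ne (Subgroup.card_le_card_group N)
          (fun h => hNtop (Subgroup.eq_top_of_card_eq N h))
      have hrowN := ih _ hlt N rfl hNPG (by
        intro M _ hM hBM
        obtain ⟨e⟩ := hD.quot_equiv M hM
        exact hB (hiso _ _ e.symm hBM))
      have : IsPretransitive N (G ⧸ H) := by
        constructor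
        intro y z
        obtain ⟨k, hk, hkz⟩ := htr y z
        exact ⟨⟨k, hk⟩, hkz⟩
      obtain ⟨x, ⟨k, hk⟩, hle⟩ := hrowN.action (Ω := G ⧸ H)
      refine ⟨x, ⟨k, ?_⟩, hle⟩
      rw [← hk]
      exact Subgroup.orderOf_coe x
    -- `G` is simple
    have hsimple : IsSimpleGroup G := by
      refine { exists_pair_ne := hnt.exists_pair_ne, eq_bot_or_eq_top_of_normal := ?_ }
      intro M hM
      rcases hmin M hM (hNtop ▸ le_top) with h | h
      · exact Or.inl h
      · exact Or.inr (h.trans hNtop)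
    have hpG : p ∣ Nat.card G := by
      rw [hNtop, Subgroup.card_top] at hpN
      exact hpN
    have hcomm : ∃ x y : G, x * y ≠ y * x := by
      obtain ⟨a, ha, b, hb, hab⟩ := hnc
      exact ⟨a, b, hab⟩
    have hBG : ¬ Bad G := by
      intro h
      have e : G ⧸ (⊥ : Subgroup G) ≃* G := QuotientGroup.quotientBot
      have : Nontrivial (G ⧸ (⊥ : Subgroup G)) := e.toEquiv.nontrivial
      exact hbad ⊥ (IsSimpleGroup.isSimpleGroup_of_surjective e.symm.toMonoidHom e.symm.surjective)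
        (hiso _ _ e.symm h)
    exact hrow G hsimple hcomm hpG hBG H hH
  -- the bad case
  by_cases hall : ∀ x : G, (∃ k : ℕ, orderOf x = p ^ k) → cj x S = S
  · exfalso
    obtain ⟨C, hC, hCs, hCB⟩ := bad_quot hD hG Bad hiso hout hnc hB hall
    exact hbad C hCs hCB
  push Not at hall
  obtain ⟨x, hx, hxS⟩ := hall
  obtain ⟨y, hy, hyp⟩ := exists_hyp hp2 hD hnc hx hxS
  refine ⟨y, hy, ?_⟩
  rw [one_mul]
  refine Wr.wr_fix hyp ?_ ?_
  · -- `S` has no fixed points
    intro ω _ hω
    have hall : ∀ z : G ⧸ H, ∀ s ∈ S, s • z = z := by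
      intro z s hs
      obtain ⟨k, hk, rfl⟩ := htr ω z
      have h1 := hSn k⁻¹ (N.inv_mem hk) s hs
      rw [inv_inv] at h1
      have h2 := hω _ h1
      calc s • k • ω = k • ((k⁻¹ * s * k) • ω) := by
            rw [smul_smul, smul_smul]
            congr 1
            group
        _ = k • ω := by rw [h2]
    -- the kernel
    let K : Subgroup G := (MulAction.toPermHom G (G ⧸ H)).ker
    have hSK : S ≤ K := by
      intro s hs
      rw [MonoidHom.mem_ker]
      ext z
      exact hall z s hs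
    have hKN : K ⊓ N = N := by
      have hn : (K ⊓ N).Normal := by
        have : K.Normal := MonoidHom.normal_ker _
        infer_instance
      rcases hmin _ hn inf_le_right with h | h
      · exfalso
        apply hS1
        rw [eq_bot_iff, ← h]
        exact le_inf hSK hSN
      · exact h
    obtain ⟨z1, z2, hz⟩ := exists_pair_ne (G ⧸ H)
    obtain ⟨k, hk, hkz⟩ := htr z1 z2
    apply hz
    rw [← hKN] at hk
    have h1 : (MulAction.toPermHom G (G ⧸ H)) k = 1 := hk.1
    have h2 := congrArg (fun f : Equiv.Perm (G ⧸ H) => f z1) h1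
    have h3 : k • z1 = z1 := h2
    rw [← hkz, h3]
  · -- the order of `S`
    obtain ⟨c, hc⟩ := hpS
    have h0 : 0 < Nat.card S := Nat.card_pos
    have h1 : c ≠ 0 := by
      rintro rfl
      omega
    have h2 : c ≠ 1 := by
      rintro rfl
      rw [mul_one] at hc
      have hcyc : IsCyclic S := isCyclic_of_prime_card hc
      obtain ⟨a, b, hab⟩ := hncS
      exact hab (hcyc.commGroup.mul_comm a b)
    rw [hc]
    have := hp.two_le
    have h3 : 2 ≤ c := by omega
    nlinarith

/-- **Theorem B** in the form of helper409. -/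
theorem row_of_simple_bad {p : ℕ} [Fact p.Prime] (hp2 : p ≠ 2)
    (Bad : ∀ (S : Type u) [Group S], Prop)
    (hiso : ∀ (S S' : Type u) [Group S] [Group S'], (S ≃* S') → Bad S → Bad S')
    (hout : ∀ (S : Type u) [Group S] [Finite S], IsSimpleGroup S → (∃ x y : S, x * y ≠ y * x) →
      Bad S → ∀ φ : MulAut S, (∃ k : ℕ, orderOf φ = p ^ k) →
        φ ∈ (MulAut.conj : S →* MulAut S).range)
    (hrow : ∀ (S : Type u) [Group S] [Finite S], IsSimpleGroup S → (∃ x y : S, x * y ≠ y * x) →
      p ∣ Nat.card S → ¬ Bad S → FprRow (p + 1) 1 p S) (n : ℕ) :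
    ∀ (G : Type u) [Group G] [Finite G], Nat.card G = n → PG p G →
      (∀ (N : Subgroup G) [N.Normal], ¬ Bad (G ⧸ N)) →
      FprRow (p + 1) 1 p G :=
  fun G _ _ hGn hG hbad =>
    row_of_simple_bad' hp2 Bad hiso hout hrow n G hGn hG (fun N _ _ => hbad N)

end Cfsg.Agent.H452.FprBad
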