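import Cfsg.Agent.H452.FprRank

/-!
# Burnside's theorem for cyclic Sylow subgroups, in the form needed for fixed point ratios
-/

set_option autoImplicit false
open Subgroup MulAction

namespace Cfsg.Agent.H452.FprBurn

open Cfsg.Agent.H409 Cfsg.Agent.H452.FprCyc Cfsg.Agent.H452.FprTorus

theorem mem_of_pow_mem {G : Type*} [Group G] {C : Subgroup G} {g : G} {a b : ℕ}
    (h : Nat.Coprime a b) (ha : g ^ a ∈ C) (hb : g ^ b ∈ C) : g ∈ C := by
  obtain ⟨u, v, huv⟩ := (Nat.isCoprime_iff_coprime.2 h : IsCoprime (a : ℤ) (b : ℤ))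
  have h1 : g = (g ^ a) ^ u * (g ^ b) ^ v := by
    rw [← zpow_natCast, ← zpow_natCast, ← zpow_mul, ← zpow_mul, ← zpow_add, mul_comm (a : ℤ),
      mul_comm (b : ℤ), huv, zpow_one]
  rw [h1]
  exact C.mul_mem (C.zpow_mem ha u) (C.zpow_mem hb v)

variable {S : Type*} [Group S] [Finite S] {l : ℕ}

/-- An element normalising a cyclic `l`-group `P` and centralising an element of order `l` of `P`
has `l`-power image in the automorphism group. -/
theorem pow_centralizes [Fact l.Prime] {P : Subgroup S} (hP : IsPGroup l P) (hc : IsCyclic P)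
    {y : S} (hy : orderOf y = l) (hyP : y ∈ P) {g : S} (hg : g ∈ normalizer (P : Set S))
    (hgy : g * y = y * g) : ∃ n : ℕ, g ^ l ^ n ∈ centralizer (P : Set S) := by
  obtain ⟨a, ha⟩ := hc.exists_generator
  obtain ⟨n, hn⟩ := hP.exists_card_eq
  have hao : (a : S) ^ l ^ n = 1 := by
    have h1 : a ^ Nat.card P = 1 := pow_card_eq_one'
    rw [hn] at h1
    exact congrArg Subtype.val h1
  -- `g a g⁻¹ = a ^ t`
  have h1 : g * a * g⁻¹ ∈ P := (mem_normalizer_iff.1 hg _).1 a.2
  obtain ⟨t, ht⟩ := ha ⟨_, h1⟩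
  have ht' : (a : S) ^ t = g * a * g⁻¹ := by
    have := congrArg (fun z : P => (z : S)) ht
    simpa using this
  have hconj : ∀ k : ℤ, g * (a : S) ^ k * g⁻¹ = ((a : S) ^ k) ^ t := by
    intro k
    have h2 : g * (a : S) ^ k * g⁻¹ = (g * a * g⁻¹) ^ k := by
      rw [← MulAut.conj_apply, map_zpow, MulAut.conj_apply]
    rw [h2, ← ht', ← zpow_mul, ← zpow_mul, mul_comm]
  -- `t ≡ 1` modulo `l`
  have hyt : y ^ (t - 1) = 1 := by
    obtain ⟨k, hk⟩ := ha ⟨y, hyP⟩
    have hk' : (a : S) ^ k = y := by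
      have := congrArg (fun z : P => (z : S)) hk
      simpa using this
    have h2 := hconj k
    rw [hk', hgy, mul_inv_cancel_right] at h2
    rw [zpow_sub, zpow_one, ← h2, mul_inv_cancel]
  have hlt : (l : ℤ) ∣ t - 1 := by
    rw [← hy]
    exact orderOf_dvd_iff_zpow_eq_one.2 hyt
  have hpow := dvd_sub_pow_of_dvd_sub hlt n
  rw [one_pow] at hpow
  refine ⟨n, ?_⟩
  have hiter : ∀ m : ℕ, g ^ m * (a : S) * (g ^ m)⁻¹ = (a : S) ^ (t ^ m) := by
    intro m
    induction m with
    | zero => simp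
    | succ m ih =>
      calc g ^ (m + 1) * (a : S) * (g ^ (m + 1))⁻¹ = g * (g ^ m * (a : S) * (g ^ m)⁻¹) * g⁻¹ := by
            rw [pow_succ']; group
        _ = g * (a : S) ^ (t ^ m) * g⁻¹ := by rw [ih]
        _ = ((a : S) ^ (t ^ m)) ^ t := hconj _
        _ = (a : S) ^ (t ^ (m + 1)) := by rw [← zpow_mul, pow_succ]
  have h3 : g ^ l ^ n * (a : S) * (g ^ l ^ n)⁻¹ = a := by
    rw [hiter]
    have h4 : (a : S) ^ (t ^ l ^ n - 1) = 1 := by
      rw [← orderOf_dvd_iff_zpow_eq_one]
      refine dvd_trans ?_ hpow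
      have h5 := orderOf_dvd_of_pow_eq_one hao
      have h6 : ((orderOf (a : S) : ℕ) : ℤ) ∣ ((l ^ n : ℕ) : ℤ) := Int.natCast_dvd_natCast.2 h5
      refine h6.trans ?_
      push_cast
      exact pow_dvd_pow _ (Nat.le_succ n)
    rw [zpow_sub, zpow_one] at h4
    exact mul_inv_eq_one.1 h4
  rw [mem_centralizer_iff]
  intro z hz
  obtain ⟨k, hk⟩ := ha ⟨z, hz⟩
  have hk' : (a : S) ^ k = z := by
    have := congrArg (fun z : P => (z : S)) hk
    simpa using this
  rw [← hk']
  have h7 : Commute (a : S) (g ^ l ^ n) := (mul_inv_eq_iff_eq_mul.1 h3).symm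
  exact (h7.zpow_left k).eq

/-- **Burnside**: in a simple group with cyclic Sylow `l`-subgroups, not itself an `l`-group, the
normaliser of a subgroup of order `l` is larger than its centraliser. -/
theorem exists_not_comm [IsSimpleGroup S] [hl : Fact l.Prime] (hc : ∀ P : Sylow l S, IsCyclic P)
    (hnl : ¬ IsPGroup l S) {y : S} (hy : orderOf y = l) :
    ∃ g ∈ normalizer ((zpowers y : Subgroup S) : Set S), g * y ≠ y * g := by
  by_contra hcon
  push Not at hcon
  have hpy : IsPGroup l (zpowers y) :=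
    IsPGroup.of_card (n := 1) (by rw [Nat.card_zpowers, hy, pow_one])
  obtain ⟨P, hP⟩ := hpy.exists_le_sylow
  have hyP : y ∈ (P : Subgroup S) := hP (mem_zpowers y)
  have hcP := hc P
  have hab : IsMulCommutative (P : Subgroup S) := by
    have := hcP
    infer_instance
  have hNC : normalizer ((P : Subgroup S) : Set S) ≤ centralizer ((P : Subgroup S) : Set S) := by
    intro g hg
    -- `g` normalises `⟨y⟩`
    have hgyP : g * y * g⁻¹ ∈ (P : Subgroup S) := (mem_normalizer_iff.1 hg _).1 hyP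
    have ho : orderOf (g * y * g⁻¹) = l := by
      rw [← hy]
      exact orderOf_injective (MulAut.conj g).toMonoidHom (MulAut.conj g).injective y
    have h3 := zpowers_eq_of_cyclic (Q := P) hl.out (x := ⟨_, hgyP⟩) (y := ⟨_, hyP⟩)
      (by rw [Subgroup.orderOf_mk, ho]) (by rw [Subgroup.orderOf_mk, hy])
    have h4 := congrArg (fun K : Subgroup P => K.map (P : Subgroup S).subtype) h3
    simp only [MonoidHom.map_zpowers] at h4
    have h5 : zpowers (g * y * g⁻¹) = zpowers y := h4
    have h6 : g ∈ normalizer ((zpowers y : Subgroup S) : Set S) := by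
      rw [mem_normalizer_iff_map_conj_eq, MonoidHom.map_zpowers]
      exact h5
    have h7 := hcon g h6
    obtain ⟨n, hn⟩ := pow_centralizes P.isPGroup' hcP hy hyP hg h7
    -- the `l'`-part
    set N := normalizer ((P : Subgroup S) : Set S) with hN
    have hPN : (P : Subgroup S) ≤ N := le_normalizer
    have hnorm : ((P : Subgroup S).subgroupOf N).Normal := normal_in_normalizer
    have h8 : (⟨g, hg⟩ : N) ^ ((P : Subgroup S).subgroupOf N).index ∈ (P : Subgroup S).subgroupOf N :=
      pow_index_mem _ _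
    have h9 : g ^ (P : Subgroup S).relIndex N ∈ (P : Subgroup S) := h8
    have h10 : g ^ (P : Subgroup S).relIndex N ∈ centralizer ((P : Subgroup S) : Set S) := by
      rw [mem_centralizer_iff]
      intro z hz
      have := hab.is_comm.comm (⟨z, hz⟩ : (P : Subgroup S)) ⟨_, h9⟩
      exact congrArg Subtype.val this
    refine mem_of_pow_mem (a := l ^ n) (b := (P : Subgroup S).relIndex N) ?_ hn h10
    apply Nat.Coprime.pow_left
    rw [hl.out.coprime_iff_not_dvd]
    intro h11
    exact P.not_dvd_index (h11.trans (relIndex_dvd_index_of_le hPN))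
  have hcomp := MonoidHom.ker_transferSylow_isComplement' P hNC
  have hker : (MonoidHom.transferSylow P hNC).ker.Normal := inferInstance
  rcases hker.eq_bot_or_eq_top with h | h
  · rw [h] at hcomp
    have h1 := Subgroup.isComplement'_bot_left.1 hcomp
    apply hnl
    have h2 : IsPGroup l (⊤ : Subgroup S) := h1 ▸ P.isPGroup'
    exact h2.of_surjective (⊤ : Subgroup S).subtype (fun s => ⟨⟨s, trivial⟩, rfl⟩)
  · rw [h] at hcomp
    have h1 := Subgroup.isComplement'_top_left.1 hcomp
    rw [h1, mem_bot] at hyP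
    rw [hyP, orderOf_one] at hy
    exact hl.out.one_lt.ne hy

/-- A radical of prime order: if `x` normalises `⟨y⟩`, `y` of prime order `l ≥ 7`, without commuting
with `y`. -/
theorem row_prime_rad [hl : Fact l.Prime] (hl7 : 7 ≤ l) (hc : ∀ P : Sylow l S, IsCyclic P)
    {x y : S} (hy : orderOf y = l) (hx : ∃ k : ℕ, orderOf x = 3 ^ k)
    (hxn : x ∈ normalizer ((zpowers y : Subgroup S) : Set S)) (hxy : x * y ≠ y * x)
    (hn : ∀ H : Subgroup S, H ≠ ⊤ →
      8 * Nat.card (normalizer ((zpowers y : Subgroup S) : Set S)) ≤ 7 * H.index) :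
    FprRow 4 1 3 S := by
  classical
  intro H hH
  refine ⟨x, hx, ?_⟩
  rw [one_mul]
  have hlp := hl.out
  -- `C_R(x) = 1`
  have hC : ∀ z ∈ zpowers y, x * z = z * x → z = 1 := by
    intro z hz hxz
    by_contra hz1
    apply hxy
    have h1 : zpowers z = zpowers y := by
      have h2 : zpowers z ≤ zpowers y := by rwa [zpowers_le]
      apply Subgroup.eq_of_le_of_card_ge h2
      rw [Nat.card_zpowers, Nat.card_zpowers, hy]
      have h3 : orderOf z ∣ l := by
        rw [← hy, ← Nat.card_zpowers, ← Nat.card_zpowers]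
        exact Subgroup.card_dvd_of_le h2
      rcases (Nat.dvd_prime hlp).1 h3 with h4 | h4
      · exact absurd (orderOf_eq_one_iff.1 h4) hz1
      · exact h4.ge
    have h2 : y ∈ zpowers z := by rw [h1]; exact mem_zpowers y
    obtain ⟨k, hk⟩ := h2
    have hk' : z ^ k = y := hk
    rw [← hk']
    exact ((show Commute x z from hxz).zpow_right k).eq
  have hcR : Nat.card (zpowers y) = l := by rw [Nat.card_zpowers, hy]
  have h1 := one_rad (Ω := S ⧸ H) (R := zpowers y) (x := x)
    (fun z hz => (mem_normalizer_iff.1 hxn z).1 hz) hC (m := 7) (by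
      rintro ω - ⟨z, hz, hzω⟩
      have h2 : Nat.card (orbit (zpowers y) ω) ∣ l := by
        rw [← hcR, Nat.card_congr (orbitEquivQuotientStabilizer (zpowers y) ω)]
        exact Subgroup.card_quotient_dvd_card _
      rcases (Nat.dvd_prime hlp).1 h2 with h3 | h3
      · exfalso
        apply hzω
        obtain ⟨h4, -⟩ := Nat.card_eq_one_iff_unique.1 h3
        have h5 := h4.elim ⟨z • ω, ⟨⟨z, hz⟩, rfl⟩⟩ ⟨ω, mem_orbit_self _⟩
        exact congrArg Subtype.val h5
      · exact le_of_le_of_eq hl7 h3.symm)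
  have h2 : Nat.card (fixedBy (S ⧸ H) x) =
      {ω : S ⧸ H | x • ω = ω ∧ ∀ z ∈ zpowers y, z • ω = ω}.ncard +
        {ω : S ⧸ H | x • ω = ω ∧ ∃ z ∈ zpowers y, z • ω ≠ ω}.ncard := by
    rw [← Set.ncard_union_eq, Nat.card_coe_set_eq]
    · congr 1
      ext ω
      simp only [mem_fixedBy, Set.mem_union, Set.mem_setOf_eq]
      constructor
      · intro h
        by_cases h3 : ∀ z ∈ zpowers y, z • ω = ω
        · exact Or.inl ⟨h, h3⟩
        · push Not at h3
          exact Or.inr ⟨h, h3⟩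
      · rintro (h | h) <;> exact h.1
    · rw [Set.disjoint_left]
      rintro ω ⟨-, h3⟩ ⟨-, z, hz, h4⟩
      exact h4 (h3 z hz)
  have h3 : {ω : S ⧸ H | x • ω = ω ∧ ∀ z ∈ zpowers y, z • ω = ω}.ncard ≤
      Nat.card (fixedBy (S ⧸ H) y) := by
    rw [Nat.card_coe_set_eq]
    apply Set.ncard_le_ncard _ (Set.toFinite _)
    rintro ω ⟨-, h4⟩
    exact h4 y (mem_zpowers y)
  have h4 := cyclic_fix hc hy H
  have h5 := hn H hH
  have h6 : H.index = Nat.card (S ⧸ H) := rfl
  rw [h6] at h5
  generalize {ω : S ⧸ H | x • ω = ω ∧ ∀ z ∈ zpowers y, z • ω = ω}.ncard = A at *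
  generalize {ω : S ⧸ H | x • ω = ω ∧ ∃ z ∈ zpowers y, z • ω ≠ ω}.ncard = B at *
  have h7 : 7 * A ≤ Nat.card (normalizer ((zpowers y : Subgroup S) : Set S)) := by
    calc 7 * A ≤ l * Nat.card (fixedBy (S ⧸ H) y) := Nat.mul_le_mul hl7 h3
      _ ≤ _ := h4
  rw [h2]
  omega

end Cfsg.Agent.H452.FprBurn
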