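import Cfsg.Agent.H452.FprTabE6_3
import Cfsg.Agent.H452.FprTabE7_3
import Cfsg.Agent.H452.FprTabE8_3
import Cfsg.Agent.H452.FprTabE6_5
import Cfsg.Agent.H452.FprTabE7_5
import Cfsg.Agent.H452.FprTabE8_5
import Cfsg.Agent.Nodes.KindE

/-!
# Mersenne primes: `E₆(q)`, `E₇(q)`, `E₈(q)`, `q` even
-/

set_option autoImplicit false

namespace Cfsg.Agent.H452.HeisC

open Cfsg.Lie Cfsg.Agent.H409

universe u

/-- the elements of order `3` -/
def X3 : Matrix.SpecialLinearGroup (Fin 3) (ZMod 2) := ⟨!![1, 0, 0; 0, 1, 1; 0, 1, 0], by decide⟩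

theorem X3_pow : X3 ^ 3 = 1 := by
  apply Subtype.ext
  change (!![1, 0, 0; 0, 1, 1; 0, 1, 0] : Matrix (Fin 3) (Fin 3) (ZMod 2)) ^ 3 = 1
  decide +kernel

theorem wp6_eq : tw (ZMod 2) TE6_3.wp = ⟨!![1, 1, 0; 0, 1, 1; 1, 1, 1], by decide⟩ := by
  apply Subtype.ext
  decide +kernel

theorem X3_conj : X3 * tw (ZMod 2) TE6_3.wp = tw (ZMod 2) TE6_3.wp ^ 2 * X3 := by
  rw [wp6_eq]
  apply Subtype.ext
  change (!![1, 0, 0; 0, 1, 1; 0, 1, 0] : Matrix (Fin 3) (Fin 3) (ZMod 2)) * !![1, 1, 0; 0, 1, 1; 1, 1, 1] =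
    !![1, 1, 0; 0, 1, 1; 1, 1, 1] ^ 2 * !![1, 0, 0; 0, 1, 1; 0, 1, 0]
  decide +kernel

section

variable (K : Type u) [Field K] [Finite K] [CharP K 2]

theorem row_E6_three : FprRow 4 1 3 ↥(chevE6.group K) :=
  TE6_3.tab.row_three (K := K) Cfsg.Agent.Nodes.KindE.isType6 X3_pow X3_conj

theorem row_E6_seven : FprRow 8 1 7 ↥(chevE6.group K) :=
  TE6_3.tab.row (K := K) Cfsg.Agent.Nodes.KindE.isType6 (p := 7) (by norm_num) (by norm_num)

theorem row_E6_thirtyone : FprRow 32 1 31 ↥(chevE6.group K) :=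
  TE6_5.tab.row (K := K) Cfsg.Agent.Nodes.KindE.isType6 (p := 31) (by norm_num) (by norm_num)

theorem row_E7_three : FprRow 4 1 3 ↥(chevE7.group K) :=
  TE7_3.tab.row_three (K := K) Cfsg.Agent.Nodes.KindE.isType7 X3_pow X3_conj

theorem row_E7_seven : FprRow 8 1 7 ↥(chevE7.group K) :=
  TE7_3.tab.row (K := K) Cfsg.Agent.Nodes.KindE.isType7 (p := 7) (by norm_num) (by norm_num)

theorem row_E7_thirtyone : FprRow 32 1 31 ↥(chevE7.group K) :=
  TE7_5.tab.row (K := K) Cfsg.Agent.Nodes.KindE.isType7 (p := 31) (by norm_num) (by norm_num)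

theorem row_E8_three : FprRow 4 1 3 ↥(chevE8.group K) :=
  TE8_3.tab.row_three (K := K) Cfsg.Agent.Nodes.KindE.isType8 X3_pow X3_conj

theorem row_E8_seven : FprRow 8 1 7 ↥(chevE8.group K) :=
  TE8_3.tab.row (K := K) Cfsg.Agent.Nodes.KindE.isType8 (p := 7) (by norm_num) (by norm_num)

theorem row_E8_thirtyone : FprRow 32 1 31 ↥(chevE8.group K) :=
  TE8_5.tab.row (K := K) Cfsg.Agent.Nodes.KindE.isType8 (p := 31) (by norm_num) (by norm_num)

end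

end Cfsg.Agent.H452.HeisC
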