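import Cfsg.Agent.H452.FprTabE8_7
import Cfsg.Agent.Nodes.KindE

/-!
# The prime `127`: `E₈(q)`, `q` even
-/

set_option autoImplicit false

namespace Cfsg.Agent.H452.HeisC

open Cfsg.Lie Cfsg.Agent.H409

universe u

theorem row_E8_127 (K : Type u) [Field K] [Finite K] [CharP K 2] : FprRow 128 1 127 ↥(chevE8.group K) :=
  TE8_7.tab.row (K := K) Cfsg.Agent.Nodes.KindE.isType8 (p := 127) (by norm_num) (by norm_num)

end Cfsg.Agent.H452.HeisC
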