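import Cfsg.Agent.H452.FprHeisU
import Cfsg.Agent.H441.FPR.Crit
import Cfsg.Agent.H398.FPR.Frob
import Cfsg.Agent.H162.GaussExcMain

/-!
# Heisenberg subgroups of Chevalley groups of characteristic two (table check)
-/

set_option autoImplicit false

namespace Cfsg.Agent.H452.HeisC

open Cfsg.Lie Cfsg.Agent.ChevalleyStructure Cfsg.Agent.ChevalleyStructure.Elts Cfsg.Agent.H79.SimpleGen
open Cfsg.Agent.H398.FPR Cfsg.Agent.H441.FPR Cfsg.Agent.H452.HeisT Cfsg.Agent.H452.FprHeis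
open Subgroup

universe u

/-- one term with a sign -/
def isOne (D : ChevalleyDatum) (a b k : ℕ) : Bool :=
  match D.commTerms a b with
  | [(k', N, 1, 1)] => k' == k && (N == 1 || N == -1)
  | _ => false

theorem isOne_spec {D : ChevalleyDatum} {a b k : ℕ} (h : isOne D a b k = true) :
    ∃ N : ℤ, (N = 1 ∨ N = -1) ∧ D.commTerms a b = [(k, N, 1, 1)] := by
  unfold isOne at h
  split at h
  · rename_i k' N hk
    rw [Bool.and_eq_true, Bool.or_eq_true, beq_iff_eq, beq_iff_eq, beq_iff_eq] at h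
    refine ⟨N, h.2, ?_⟩
    rw [hk, h.1]
  · exact absurd h (by simp)

/-- no term -/
def isNil (D : ChevalleyDatum) (a b : ℕ) : Bool :=
  match D.commTerms a b with
  | [] => true
  | _ => false

theorem isNil_spec {D : ChevalleyDatum} {a b : ℕ} (h : isNil D a b = true) : D.commTerms a b = [] := by
  unfold isNil at h
  split at h
  · assumption
  · exact absurd h (by simp)

/-- no term or one term with a sign -/
def isLe (D : ChevalleyDatum) (a b k : ℕ) : Bool :=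
  match D.commTerms a b with
  | [] => true
  | [(k', N, 1, 1)] => k' == k && (N == 1 || N == -1)
  | _ => false

theorem isLe_spec {D : ChevalleyDatum} {a b k : ℕ} (h : isLe D a b k = true) :
    D.commTerms a b = [] ∨ ∃ N : ℤ, (N = 1 ∨ N = -1) ∧ D.commTerms a b = [(k, N, 1, 1)] := by
  unfold isLe at h
  split at h
  · exact Or.inl (by assumption)
  · rename_i k' N hk
    rw [Bool.and_eq_true, Bool.or_eq_true, beq_iff_eq, beq_iff_eq, beq_iff_eq] at h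
    refine Or.inr ⟨N, h.2, ?_⟩
    rw [hk, h.1]
  · exact absurd h (by simp)

/-- lookup in a table -/
def look (M : List (ℕ × List (ℕ × ℕ))) (a γ : ℕ) : Option ℕ :=
  (M.lookup a).bind fun L => L.lookup γ

/-- the table check -/
structure HOK (D : ChevalleyDatum) (z : ℕ) (Γ : List ℕ) (M : List (ℕ × List (ℕ × ℕ))) (w : List ℕ)
    (V : List (ℕ × List ℕ)) {N : ℕ} (bs cs : Fin N → ℕ) : Prop where
  zlt : z < D.nroots
  gam : ∀ γ ∈ Γ, γ < D.nroots ∧ γ ≠ z ∧ γ ≠ D.neg z ∧ isNil D z γ = true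
  blk : ∀ e ∈ M, e.1 < D.nroots ∧ z ≠ e.1 ∧ z ≠ D.neg e.1 ∧ isNil D e.1 z = true
  act : ∀ e ∈ M, ∀ γ ∈ Γ, γ ≠ e.1 ∧ γ ≠ D.neg e.1 ∧
    (look M e.1 γ).elim (isNil D e.1 γ) (fun k => (decide (k ∈ Γ) && (look M e.1 k == none)) &&
      isOne D e.1 γ k) = true
  pair : ∀ β ∈ Γ, ∀ γ ∈ Γ, β < γ → γ ≠ D.neg β ∧ isLe D β γ z = true
  wW : ∀ a ∈ w, a ∈ M.map Prod.fst
  V1 : ∀ e ∈ V, (∀ γ ∈ e.2, γ ∈ Γ) ∧ e.2.foldr toggle (acts (look M) w e.2) = [e.1]
  V2 : Γ = V.map Prod.fst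
  bc : ∀ i, bs i ∈ Γ ∧ cs i ∈ Γ ∧ cs i ≠ bs i ∧ cs i ≠ D.neg (bs i) ∧ isOne D (bs i) (cs i) z = true
  bc' : ∀ i j, j ≠ i → cs j ≠ D.neg (bs i) ∧ (cs j = bs i ∨ isNil D (bs i) (cs j) = true)

section

variable {K : Type u} [Field K] {D : ChevalleyDatum} (hD : InList D)

/-- the root subgroup -/
def XR (K : Type u) [Field K] (z : ℕ) : Subgroup ↥(D.group K) := (rootHom hD z (1 : K)).range

theorem mem_XR {z : ℕ} {g : ↥(D.group K)} : g ∈ XR hD K z ↔ ∃ t : K, g = xS hD z t := by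
  constructor
  · rintro ⟨t, rfl⟩
    refine ⟨t.toAdd, ?_⟩
    change xS hD z (1 * t.toAdd) = _
    rw [one_mul]
  · rintro ⟨t, rfl⟩
    refine ⟨Multiplicative.ofAdd t, ?_⟩
    change xS hD z (1 * t) = _
    rw [one_mul]

/-- the generators -/
def TT (K : Type u) [Field K] (Γ : List ℕ) : Set ↥(D.group K) := {g | ∃ γ ∈ Γ, ∃ t : K, g = xS hD γ t}

theorem mem_TT {Γ : List ℕ} {γ : ℕ} (h : γ ∈ Γ) (t : K) : xS hD γ t ∈ Subgroup.closure (TT hD K Γ) :=
  subset_closure ⟨γ, h, t, rfl⟩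

theorem xS_conj_one {a γ k : ℕ} {N : ℤ} (h2 : (2 : K) = 0) (hN : N = 1 ∨ N = -1) (ha : a < D.nroots)
    (hγ : γ < D.nroots) (h1 : γ ≠ a) (hn : γ ≠ D.neg a) (h : D.commTerms a γ = [(k, N, 1, 1)])
    (hk : k < D.nroots) (h3 : k ≠ a) (h4 : k ≠ D.neg a) (h5 : D.commTerms a k = []) (s t : K) :
    xS hD a s * xS hD γ t * (xS hD a s)⁻¹ = xS hD γ t * xS hD k (s * t) := by
  have hNK : (N : K) = 1 := by
    rcases hN with rfl | rfl
    · exact Int.cast_one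
    · rw [Int.cast_neg, Int.cast_one, neg_eq_iff_add_eq_zero, one_add_one_eq_two, h2]
  have h6 := xS_one hD (K := K) ha hγ h1 hn h s t
  rw [hNK, one_mul] at h6
  have h7 := xS_comm hD (K := K) ha hk h3 h4 h5 s (s * t)
  calc xS hD a s * xS hD γ t * (xS hD a s)⁻¹ = xS hD γ t * (xS hD a s * xS hD k (s * t)) * (xS hD a s)⁻¹ := by
        rw [h6]; group
    _ = _ := by rw [h7]; group

theorem xS_comm_mem {a γ k : ℕ} {N : ℤ} (ha : a < D.nroots)
    (hγ : γ < D.nroots) (h1 : γ ≠ a) (hn : γ ≠ D.neg a) (h : D.commTerms a γ = [(k, N, 1, 1)])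
    (s t : K) : ∃ c : K, xS hD a s * xS hD γ t = xS hD γ t * xS hD a s * xS hD k c :=
  ⟨_, xS_one hD (K := K) ha hγ h1 hn h s t⟩

/-- commutator with one term, second root central -/
theorem xS_commutator {a γ k : ℕ} {N : ℤ} (ha : a < D.nroots)
    (hγ : γ < D.nroots) (h1 : γ ≠ a) (hn : γ ≠ D.neg a) (h : D.commTerms a γ = [(k, N, 1, 1)])
    (hk1 : ∀ s t : K, xS hD k s * xS hD a t = xS hD a t * xS hD k s)
    (hk2 : ∀ s t : K, xS hD k s * xS hD γ t = xS hD γ t * xS hD k s) (s t : K) :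
    xS hD a s * xS hD γ t * (xS hD a s)⁻¹ * (xS hD γ t)⁻¹ = xS hD k ((N : K) * s * t) := by
  have h6 := xS_one hD (K := K) ha hγ h1 hn h s t
  calc xS hD a s * xS hD γ t * (xS hD a s)⁻¹ * (xS hD γ t)⁻¹ =
        xS hD γ t * (xS hD a s * xS hD k ((N : K) * s * t)) * (xS hD a s)⁻¹ * (xS hD γ t)⁻¹ := by
        rw [h6]; group
    _ = (xS hD γ t * xS hD k ((N : K) * s * t)) * (xS hD γ t)⁻¹ := by rw [← hk1]; group
    _ = _ := by rw [← hk2]; group

variable {z : ℕ} {Γ : List ℕ} {M : List (ℕ × List (ℕ × ℕ))} {w : List ℕ} {V : List (ℕ × List ℕ)} {N : ℕ}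
  {bs cs : Fin N → ℕ}

include hD in
theorem HOK.cent (h : HOK D z Γ M w V bs cs) :
    ∀ y ∈ XR hD K z, ∀ t ∈ TT hD K Γ, y * t = t * y := by
  rintro y hy _ ⟨γ, hγ, t, rfl⟩
  obtain ⟨s, rfl⟩ := (mem_XR hD).1 hy
  obtain ⟨h1, h2, h3, h4⟩ := h.gam γ hγ
  exact xS_comm hD h.zlt h1 h2 h3 (isNil_spec h4) s t

theorem HOK.cent' (h : HOK D z Γ M w V bs cs) {γ : ℕ} (hγ : γ ∈ Γ) (s t : K) :
    xS hD z s * xS hD γ t = xS hD γ t * xS hD z s :=
  h.cent hD _ ((mem_XR hD).2 ⟨s, rfl⟩) _ ⟨γ, hγ, t, rfl⟩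

theorem commutator_inv_mem {G : Type*} [Group G] {Z : Subgroup G} {a b : G} (h : a * b * a⁻¹ * b⁻¹ ∈ Z) :
    b * a * b⁻¹ * a⁻¹ ∈ Z := by
  have h1 := inv_mem h
  have h2 : (a * b * a⁻¹ * b⁻¹)⁻¹ = b * a * b⁻¹ * a⁻¹ := by group
  rwa [h2] at h1

theorem HOK.comm (h : HOK D z Γ M w V bs cs) :
    ∀ s ∈ TT hD K Γ, ∀ t ∈ TT hD K Γ, s * t * s⁻¹ * t⁻¹ ∈ XR hD K z := by
  have key : ∀ β ∈ Γ, ∀ γ ∈ Γ, β < γ → ∀ s t : K,
      xS hD β s * xS hD γ t * (xS hD β s)⁻¹ * (xS hD γ t)⁻¹ ∈ XR hD K z := by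
    intro β hβ γ hγ hlt s t
    obtain ⟨h1, h2⟩ := h.pair β hβ γ hγ hlt
    rcases isLe_spec h2 with h3 | ⟨N, -, h3⟩
    · have h4 := xS_comm hD (K := K) (h.gam β hβ).1 (h.gam γ hγ).1 hlt.ne' h1 h3 s t
      have h5 : xS hD β s * xS hD γ t * (xS hD β s)⁻¹ * (xS hD γ t)⁻¹ = 1 := by
        rw [h4]; group
      rw [h5]
      exact one_mem _
    · rw [xS_commutator hD (h.gam β hβ).1 (h.gam γ hγ).1 hlt.ne' h1 h3 (fun s t => h.cent' hD hβ s t)
        (fun s t => h.cent' hD hγ s t)]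
      exact (mem_XR hD).2 ⟨_, rfl⟩
  rintro _ ⟨β, hβ, s, rfl⟩ _ ⟨γ, hγ, t, rfl⟩
  rcases lt_trichotomy β γ with hlt | rfl | hlt
  · exact key β hβ γ hγ hlt s t
  · have h5 : xS hD β s * xS hD β t * (xS hD β s)⁻¹ * (xS hD β t)⁻¹ = 1 := by
      rw [xS_mul, add_comm, ← xS_mul]; group
    rw [h5]
    exact one_mem _
  · exact commutator_inv_mem (key γ hγ β hβ hlt t s)

/-- every element of the centre is a commutator -/
theorem HOK.exists_comm (h : HOK D z Γ M w V bs cs) (i : Fin N) (t : K) :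
    ∃ s : K, xS hD (bs i) s * xS hD (cs i) 1 * (xS hD (bs i) s)⁻¹ * (xS hD (cs i) 1)⁻¹ = xS hD z t := by
  obtain ⟨h1, h2, h3, h4, h5⟩ := h.bc i
  obtain ⟨N, hN, h6⟩ := isOne_spec h5
  refine ⟨(N : K) * t, ?_⟩
  rw [xS_commutator hD (h.gam _ h1).1 (h.gam _ h2).1 h3 h4 h6 (fun s t => h.cent' hD h1 s t)
        (fun s t => h.cent' hD h2 s t)]
  congr 1
  have hNN : (N : K) * (N : K) = 1 := by
    rcases hN with rfl | rfl
    · rw [Int.cast_one, one_mul]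
    · rw [Int.cast_neg, Int.cast_one]; ring
  rw [mul_one, ← mul_assoc, hNN, one_mul]

theorem HOK.le (h : HOK D z Γ M w V bs cs) (i : Fin N) : XR hD K z ≤ Subgroup.closure (TT hD K Γ) := by
  intro y hy
  obtain ⟨t, rfl⟩ := (mem_XR hD).1 hy
  obtain ⟨s, hs⟩ := h.exists_comm hD i t
  rw [← hs]
  have h1 := mem_TT hD (h.bc i).1 s
  have h2 := mem_TT hD (h.bc i).2.1 (1 : K)
  exact mul_mem (mul_mem (mul_mem h1 h2) (inv_mem h1)) (inv_mem h2)

theorem HOK.conj (h : HOK D z Γ M w V bs cs) (h2 : (2 : K) = 0) {a : ℕ} (ha : a ∈ M.map Prod.fst) {γ : ℕ}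
    (hγ : γ ∈ Γ) (t : K) : xS hD a 1 * xS hD γ t * (xS hD a 1)⁻¹ =
      xS hD γ t * (look M a γ).elim 1 (fun k => xS hD k t) := by
  obtain ⟨e, he, rfl⟩ := List.mem_map.1 ha
  obtain ⟨h1, h3, h4⟩ := h.act e he γ hγ
  obtain ⟨b1, b2, b3, b4⟩ := h.blk e he
  cases hm : look M e.1 γ with
  | none =>
    rw [hm] at h4
    have h5 := xS_comm hD (K := K) b1 (h.gam γ hγ).1 h1 h3 (isNil_spec h4) 1 t
    rw [h5]
    change _ = _ * 1
    group
  | some k =>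
    rw [hm] at h4
    have h5 : ((decide (k ∈ Γ) && (look M e.1 k == none)) && isOne D e.1 γ k) = true := h4
    rw [Bool.and_eq_true, Bool.and_eq_true, decide_eq_true_iff, beq_iff_eq] at h5
    obtain ⟨⟨h6, h7⟩, h8⟩ := h5
    obtain ⟨N, hN, h9⟩ := isOne_spec h8
    obtain ⟨k1, k3, k4⟩ := h.act e he k h6
    rw [h7] at k4
    rw [xS_conj_one hD h2 hN b1 (h.gam γ hγ).1 h1 h3 h9 (h.gam k h6).1 k1 k3 (isNil_spec k4), one_mul]
    rfl

theorem HOK.look_mem (h : HOK D z Γ M w V bs cs) {a : ℕ} (ha : a ∈ M.map Prod.fst) {γ : ℕ}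
    (hγ : γ ∈ Γ) {k : ℕ} (hk : look M a γ = some k) : k ∈ Γ := by
  obtain ⟨e, he, rfl⟩ := List.mem_map.1 ha
  obtain ⟨h1, h3, h4⟩ := h.act e he γ hγ
  rw [hk] at h4
  have h5 : ((decide (k ∈ Γ) && (look M e.1 k == none)) && isOne D e.1 γ k) = true := h4
  rw [Bool.and_eq_true, Bool.and_eq_true, decide_eq_true_iff] at h5
  exact h5.1.1

/-- the element of the word -/
def yy (K : Type u) [Field K] (w : List ℕ) : ↥(D.group K) := (w.map fun a => xS hD a 1).prod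

theorem HOK.conj_mem (h : HOK D z Γ M w V bs cs) (h2 : (2 : K) = 0) {a : ℕ} (ha : a ∈ M.map Prod.fst) :
    ∀ r ∈ Subgroup.closure (TT hD K Γ), xS hD a 1 * r * (xS hD a 1)⁻¹ ∈ Subgroup.closure (TT hD K Γ) := by
  have h1 : Subgroup.closure (TT hD K Γ) ≤
      (Subgroup.closure (TT hD K Γ)).comap (MulAut.conj (xS hD a (1 : K))).toMonoidHom := by
    rw [closure_le]
    rintro _ ⟨γ, hγ, t, rfl⟩
    change xS hD a 1 * xS hD γ t * (xS hD a 1)⁻¹ ∈ Subgroup.closure (TT hD K Γ)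
    rw [h.conj hD h2 ha hγ]
    refine mul_mem (mem_TT hD hγ t) ?_
    cases hm : look M a γ with
    | none => exact one_mem _
    | some k => exact mem_TT hD (h.look_mem ha hγ hm) t
  exact fun r hr => h1 hr

theorem HOK.yy_conj_mem (h : HOK D z Γ M w V bs cs) (h2 : (2 : K) = 0) :
    ∀ r ∈ Subgroup.closure (TT hD K Γ), yy hD K w * r * (yy hD K w)⁻¹ ∈ Subgroup.closure (TT hD K Γ) := by
  have key : ∀ w' : List ℕ, (∀ a ∈ w', a ∈ M.map Prod.fst) → ∀ r ∈ Subgroup.closure (TT hD K Γ),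
      yy hD K w' * r * (yy hD K w')⁻¹ ∈ Subgroup.closure (TT hD K Γ) := by
    intro w'
    induction w' with
    | nil =>
      intro _ r hr
      have : yy hD K [] * r * (yy hD K [])⁻¹ = r := by simp [yy]
      rwa [this]
    | cons a w' ih =>
      intro hw r hr
      have h3 := h.conj_mem hD h2 (hw a List.mem_cons_self) _ (ih (fun b hb => hw b (List.mem_cons_of_mem _ hb)) r hr)
      have h4 : yy hD K (a :: w') = xS hD a 1 * yy hD K w' := rfl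
      rw [h4]
      have h5 : xS hD a 1 * yy hD K w' * r * (xS hD a 1 * yy hD K w')⁻¹ =
        xS hD a 1 * (yy hD K w' * r * (yy hD K w')⁻¹) * (xS hD a 1)⁻¹ := by group
      rwa [h5]
  exact key w h.wW

theorem HOK.fix1 (h : HOK D z Γ M w V bs cs) {a : ℕ} (ha : a ∈ M.map Prod.fst) :
    ∀ y ∈ XR hD K z, xS hD a 1 * y = y * xS hD a 1 := by
  intro y hy
  obtain ⟨t, rfl⟩ := (mem_XR hD).1 hy
  obtain ⟨e, he, rfl⟩ := List.mem_map.1 ha
  obtain ⟨b1, b2, b3, b4⟩ := h.blk e he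
  exact xS_comm hD (K := K) b1 h.zlt b2 b3 (isNil_spec b4) 1 t

theorem HOK.fix (h : HOK D z Γ M w V bs cs) : ∀ y ∈ XR hD K z, yy hD K w * y = y * yy hD K w := by
  intro y hy
  have key : ∀ w' : List ℕ, (∀ a ∈ w', a ∈ M.map Prod.fst) → yy hD K w' * y = y * yy hD K w' := by
    intro w'
    induction w' with
    | nil => intro _; simp [yy]
    | cons a w' ih =>
      intro hw
      have h3 := h.fix1 hD (hw a List.mem_cons_self) y hy
      have h4 := ih fun b hb => hw b (List.mem_cons_of_mem _ hb)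
      have h5 : yy hD K (a :: w') = xS hD a 1 * yy hD K w' := rfl
      rw [h5, mul_assoc, h4, ← mul_assoc, h3, mul_assoc]
  exact key w h.wW

/-- **The Heisenberg group of a table.** -/
theorem HOK.heis [Finite K] (h : HOK D z Γ M w V bs cs) (h2 : (2 : K) = 0) (i : Fin N) :
    Heis (yy hD K w) (Subgroup.closure (TT hD K Γ)) (XR hD K z) := by
  classical
  have hfin : Finite ↥(D.group K) := inferInstance
  refine heis_of (h.le hD i) (h.cent hD) (h.comm hD) (h.fix hD) ?_ ?_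
  · intro t ht
    exact h.yy_conj_mem hD h2 t (subset_closure ht)
  · rintro _ ⟨β, hβ, t, rfl⟩
    obtain ⟨A, hA, π, hπ⟩ := exists_quot (cent_of (h.cent (K := K) hD)) (der_of (h.cent (K := K) hD) (h.comm hD))
    let e : ℕ → A := fun γ => if hγ : γ ∈ Γ then π ⟨xS hD γ t, mem_TT hD hγ t⟩ else 1
    have hf : ∀ γ ∈ Γ, ∃ hγ : xS hD γ t ∈ Subgroup.closure (TT hD K Γ), π ⟨xS hD γ t, hγ⟩ = e γ := by
      intro γ hγ
      refine ⟨mem_TT hD hγ t, ?_⟩
      change _ = dite _ _ _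
      rw [dif_pos hγ]
    have he : ∀ γ, e γ * e γ = 1 := by
      intro γ
      by_cases hγ : γ ∈ Γ
      · have h3 : e γ = π ⟨xS hD γ t, mem_TT hD hγ t⟩ := dif_pos hγ
        rw [h3, ← map_mul]
        have h4 : (⟨xS hD γ t, mem_TT hD hγ t⟩ * ⟨xS hD γ t, mem_TT hD hγ t⟩ :
            ↥(Subgroup.closure (TT hD K Γ))) = 1 := by
          apply Subtype.ext
          change xS hD γ t * xS hD γ t = 1
          rw [xS_mul, ← two_mul, h2, zero_mul, xS_zero]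
        rw [h4, map_one]
      · have h3 : e γ = 1 := dif_neg hγ
        rw [h3, mul_one]
    rw [h.V2] at hβ
    obtain ⟨v, hv, hvβ⟩ := List.mem_map.1 hβ
    obtain ⟨v1, v2⟩ := h.V1 v hv
    rw [hvβ] at v2
    have h5 := surj_of' (π := π) hπ (f := fun γ => xS hD γ t) (e := e) hf he (W := M.map Prod.fst)
      (x := fun a => xS hD a 1) (m := look M) (fun a ha γ hγ k hk => h.look_mem ha hγ hk)
      (fun a ha γ hγ => h.conj hD h2 ha hγ t) (fun a ha => h.fix1 hD ha) (h.le hD i) (w := w) h.wW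
      (v := v.2) v1 (β := β) (by rw [h.V2]; exact hβ) v2
    exact ⟨_, h5.1, h5.2⟩

theorem card_XR [Finite K] {z : ℕ} (hz : z < D.nroots) : 2 ≤ Nat.card (XR hD K z) := by
  have hfin : Finite ↥(D.group K) := inferInstance
  have : Nontrivial (XR hD K z) := by
    refine ⟨⟨⟨xS hD z 0, (mem_XR hD).2 ⟨0, rfl⟩⟩, ⟨xS hD z 1, (mem_XR hD).2 ⟨1, rfl⟩⟩, ?_⟩⟩
    intro h
    have h1 := xS_injective hD hz (congrArg Subtype.val h)
    exact zero_ne_one h1
  exact Finite.one_lt_card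

theorem HOK.big [Finite K] (h : HOK D z Γ M w V bs cs) {k : ℕ} (hk : 2 * k + 1 ≤ N) :
    2 ^ (k + 1) * (Nat.card (XR hD K z) ^ k * Nat.card ↥(Subgroup.closure (TT hD K Γ) ⊓
      Subgroup.centralizer (Subgroup.closure (TT hD K Γ) : Set ↥(D.group K)))) ≤
      Nat.card ↥(Subgroup.closure (TT hD K Γ)) := by
  have hfin : Finite ↥(D.group K) := inferInstance
  have h1 := big_of (R := Subgroup.closure (TT hD K Γ)) (Z := XR hD K z) (cent_of (h.cent (K := K) hD))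
    (der_of (h.cent (K := K) hD) (h.comm hD)) (N := N) (c := fun i => xS hD (cs i) (1 : K))
    (fun i => mem_TT hD (h.bc i).2.1 1) (by
      intro i y hy
      obtain ⟨t, rfl⟩ := (mem_XR hD).1 hy
      obtain ⟨s, hs⟩ := h.exists_comm hD i t
      refine ⟨_, mem_TT hD (h.bc i).1 s, hs, ?_⟩
      intro j hj
      obtain ⟨h3, h4⟩ := h.bc' i j hj
      rcases h4 with h4 | h4
      · rw [h4, xS_mul, add_comm, ← xS_mul]
      · by_cases h5 : cs j = bs i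
        · rw [h5, xS_mul, add_comm, ← xS_mul]
        · exact xS_comm hD (K := K) (h.gam _ (h.bc i).1).1 (h.gam _ (h.bc j).2.1).1 h5 h3 (isNil_spec h4) s 1)
  obtain ⟨W, hW⟩ : ∃ W, W = Nat.card ↥(Subgroup.closure (TT hD K Γ) ⊓
      Subgroup.centralizer (Subgroup.closure (TT hD K Γ) : Set ↥(D.group K))) := ⟨_, rfl⟩
  obtain ⟨q, hq⟩ : ∃ q, q = Nat.card (XR hD K z) := ⟨_, rfl⟩
  have h2 := card_XR hD (K := K) h.zlt
  rw [← hW, ← hq] at h1 ⊢
  rw [← hq] at h2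
  calc 2 ^ (k + 1) * (q ^ k * W) ≤ q ^ (k + 1) * (q ^ k * W) :=
        Nat.mul_le_mul_right _ (Nat.pow_le_pow_left h2 _)
    _ = q ^ (2 * k + 1) * W := by rw [← mul_assoc, ← pow_add]; congr 2; ring
    _ ≤ q ^ N * W := Nat.mul_le_mul_right _ (Nat.pow_le_pow_right (by omega) hk)
    _ ≤ _ := h1

/-- **The ratio from two tables.** -/
theorem uGood_of [Finite K] {P : List (ℕ × ℕ)} {z z' : ℕ} {M M' : List (ℕ × List (ℕ × ℕ))} {w : List ℕ}
    {V V' : List (ℕ × List ℕ)}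
    {bs cs bs' cs' : Fin N → ℕ} (h : HOK D z (P.map Prod.fst) M w V bs cs)
    (h' : HOK D z' (P.map Prod.snd) M' w V' bs' cs')
    (hP : ∀ e ∈ P, e.1 ≠ z' ∧ e.1 ≠ D.neg z' ∧ e.2 ≠ z ∧ e.2 ≠ D.neg z ∧
      isOne D z' e.1 e.2 = true ∧ isOne D z e.2 e.1 = true)
    {steps : List (ℕ × ℕ)} (hg : GenOK D (P.map Prod.fst ++ P.map Prod.snd) steps)
    (h2 : (2 : K) = 0) {p k j : ℕ} (hp : p.Prime) (hpk : p + 1 = 2 ^ k) (hk : 2 * k + 1 ≤ N)
    (hy : yy hD K w ^ p ^ j = 1) : UGood 1 (p + 1) (yy hD K w) := by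
  have hfin : Finite ↥(D.group K) := inferInstance
  have i0 : Fin N := ⟨0, by omega⟩
  have hcomm : ∀ {z : ℕ} {Γ : List ℕ} {M : List (ℕ × List (ℕ × ℕ))} {V : List (ℕ × List ℕ)}
      {bs cs : Fin N → ℕ}, HOK D z Γ M w V bs cs → ∀ y ∈ XR hD K z,
        ∃ a ∈ Subgroup.closure (TT hD K Γ), ∃ b ∈ Subgroup.closure (TT hD K Γ), y = a * b * a⁻¹ * b⁻¹ := by
    intro z Γ M V bs cs h y hy
    obtain ⟨t, rfl⟩ := (mem_XR hD).1 hy
    obtain ⟨s, hs⟩ := h.exists_comm hD i0 t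
    exact ⟨_, mem_TT hD (h.bc i0).1 s, _, mem_TT hD (h.bc i0).2.1 1, hs.symm⟩
  -- generation
  have hgen : ∀ H : Subgroup ↥(D.group K), (∀ e ∈ P, (∀ t : K, xS hD e.1 t ∈ H) ∧ (∀ t : K, xS hD e.2 t ∈ H)) →
      H = ⊤ := by
    intro H hH
    apply GenOK.top hD hg
    intro k hk t
    rcases List.mem_append.1 hk with hk | hk
    · obtain ⟨e, he, rfl⟩ := List.mem_map.1 hk
      exact (hH e he).1 t
    · obtain ⟨e, he, rfl⟩ := List.mem_map.1 hk
      exact (hH e he).2 t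
  have step : ∀ {z a b : ℕ}, z < D.nroots → a < D.nroots → a ≠ z → a ≠ D.neg z → isOne D z a b = true →
      ∀ H : Subgroup ↥(D.group K), (∀ t : K, xS hD a t ∈ H) → ∀ c : K, c ≠ 0 → xS hD z c ∈ H →
        ∀ t : K, xS hD b t ∈ H := by
    intro z a b hz ha h3 h4 h5 H hH c hc hcH t
    obtain ⟨N, hN, h6⟩ := isOne_spec h5
    have hNN : (N : K) * (N : K) = 1 := by
      rcases hN with rfl | rfl
      · rw [Int.cast_one, one_mul]
      · rw [Int.cast_neg, Int.cast_one]; ring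
    have h7 := xS_one hD (K := K) hz ha h3 h4 h6 c ((N : K) * c⁻¹ * t)
    have h8 : (N : K) * c * ((N : K) * c⁻¹ * t) = t := by
      calc (N : K) * c * ((N : K) * c⁻¹ * t) = ((N : K) * (N : K)) * (c * c⁻¹) * t := by ring
        _ = t := by rw [hNN, mul_inv_cancel₀ hc]; ring
    rw [h8] at h7
    have h9 : xS hD b t = (xS hD a ((N : K) * c⁻¹ * t) * xS hD z c)⁻¹ * (xS hD z c * xS hD a ((N : K) * c⁻¹ * t)) := by
      rw [h7]; group
    rw [h9]
    exact mul_mem (inv_mem (mul_mem (hH _) hcH)) (mul_mem hcH (hH _))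
  have hmem1 : ∀ e ∈ P, e.1 ∈ P.map Prod.fst := fun e he => List.mem_map.2 ⟨e, he, rfl⟩
  have hmem2 : ∀ e ∈ P, e.2 ∈ P.map Prod.snd := fun e he => List.mem_map.2 ⟨e, he, rfl⟩
  refine heis_mersenne (k := k) (j := j) hp hpk hy (h.heis hD h2 i0) (h'.heis hD h2 i0) (hcomm h) (hcomm h')
    (fun g hg ha => mem_inf.2 ⟨hg, mem_centralizer_iff.2 fun a haR => (ha a haR).symm⟩)
    (fun g hg ha => mem_inf.2 ⟨hg, mem_centralizer_iff.2 fun a haR => (ha a haR).symm⟩)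
    (h.big hD hk) (h'.big hD hk) ?_ ?_
  · intro H hH y hy hy1 hyH
    obtain ⟨c, rfl⟩ := (mem_XR hD).1 hy
    have hc : c ≠ 0 := by
      rintro rfl
      exact hy1 (xS_zero hD z')
    apply hgen
    intro e he
    obtain ⟨e1, e2, e3, e4, e5, e6⟩ := hP e he
    have hH1 : ∀ t : K, xS hD e.1 t ∈ H := fun t => hH (mem_TT hD (hmem1 e he) t)
    exact ⟨hH1, step h'.zlt (h.gam _ (hmem1 e he)).1 e1 e2 e5 H hH1 c hc hyH⟩
  · intro H hH y hy hy1 hyH
    obtain ⟨c, rfl⟩ := (mem_XR hD).1 hy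
    have hc : c ≠ 0 := by
      rintro rfl
      exact hy1 (xS_zero hD z)
    apply hgen
    intro e he
    obtain ⟨e1, e2, e3, e4, e5, e6⟩ := hP e he
    have hH1 : ∀ t : K, xS hD e.2 t ∈ H := fun t => hH (mem_TT hD (hmem2 e he) t)
    exact ⟨step h.zlt (h'.gam _ (hmem2 e he)).1 e3 e4 e6 H hH1 c hc hyH, hH1⟩

end

end Cfsg.Agent.H452.HeisC
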