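import Cfsg.Agent.H452.FprHeisM

/-!
# Heisenberg groups from generators

Criteria for `Heis x (closure T) Z` from properties of the generators, the number of elements, and the
toggling calculus for the action on an elementary abelian quotient.
-/

set_option autoImplicit false
open Subgroup MulAction

namespace Cfsg.Agent.H452.HeisT

open Cfsg.Agent.H452.FprHeis

section

variable {G : Type*} [Group G] {T : Set G} {Z : Subgroup G}

theorem cent_of (hZ : ∀ z ∈ Z, ∀ t ∈ T, z * t = t * z) :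
    ∀ z ∈ Z, ∀ g ∈ Subgroup.closure T, z * g = g * z := by
  intro z hz g hg
  have h1 : Subgroup.closure T ≤ Subgroup.centralizer {z} := by
    rw [closure_le]
    intro t ht
    change t ∈ Subgroup.centralizer {z}
    rw [mem_centralizer_singleton_iff]
    exact (hZ z hz t ht).symm
  have h2 := h1 hg
  rw [mem_centralizer_singleton_iff] at h2
  exact h2.symm

theorem der_of (hZ : ∀ z ∈ Z, ∀ t ∈ T, z * t = t * z)
    (hT : ∀ s ∈ T, ∀ t ∈ T, s * t * s⁻¹ * t⁻¹ ∈ Z) :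
    ∀ a ∈ Subgroup.closure T, ∀ b ∈ Subgroup.closure T, a * b * a⁻¹ * b⁻¹ ∈ Z := by
  have hc := cent_of hZ
  have h1 : ∀ t ∈ T, ∀ a ∈ Subgroup.closure T, a * t * a⁻¹ * t⁻¹ ∈ Z := by
    intro t ht a ha
    refine Subgroup.closure_induction (p := fun a _ => a * t * a⁻¹ * t⁻¹ ∈ Z) ?_ ?_ ?_ ?_ ha
    · intro s hs
      exact hT s hs t ht
    · have : (1 : G) * t * 1⁻¹ * t⁻¹ = 1 := by group
      rw [this]
      exact one_mem _
    · intro a b ha hb ha' hb'
      have h2 := hc _ hb' a ha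
      have h3 : a * b * t * (a * b)⁻¹ * t⁻¹ = (b * t * b⁻¹ * t⁻¹) * (a * t * a⁻¹ * t⁻¹) := by
        calc a * b * t * (a * b)⁻¹ * t⁻¹ = a * (b * t * b⁻¹ * t⁻¹) * (t * a⁻¹ * t⁻¹) := by group
          _ = (b * t * b⁻¹ * t⁻¹) * a * (t * a⁻¹ * t⁻¹) := by rw [h2]
          _ = _ := by group
      rw [h3]
      exact mul_mem hb' ha'
    · intro a ha ha'
      have h2 := hc _ ha' a ha
      have h3 : a⁻¹ * t * a⁻¹⁻¹ * t⁻¹ = (a * t * a⁻¹ * t⁻¹)⁻¹ := by
        have h4 : a⁻¹ * (a * t * a⁻¹ * t⁻¹) * a = a * t * a⁻¹ * t⁻¹ := by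
          rw [mul_assoc, h2, ← mul_assoc, inv_mul_cancel, one_mul]
        rw [← h4]
        group
      rw [h3]
      exact inv_mem ha'
  intro a ha b hb
  refine Subgroup.closure_induction (p := fun b _ => a * b * a⁻¹ * b⁻¹ ∈ Z) ?_ ?_ ?_ ?_ hb
  · intro t ht
    exact h1 t ht a ha
  · have : a * 1 * a⁻¹ * (1 : G)⁻¹ = 1 := by group
    rw [this]
    exact one_mem _
  · intro b c hb hc1 hb' hc'
    have h2 := hc _ hc' b hb
    have h3 : a * (b * c) * a⁻¹ * (b * c)⁻¹ = (a * b * a⁻¹ * b⁻¹) * (a * c * a⁻¹ * c⁻¹) := by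
      calc a * (b * c) * a⁻¹ * (b * c)⁻¹ = a * b * a⁻¹ * ((a * c * a⁻¹ * c⁻¹) * b⁻¹) := by group
        _ = a * b * a⁻¹ * (b⁻¹ * (a * c * a⁻¹ * c⁻¹)) := by
          have h4 : (a * c * a⁻¹ * c⁻¹) * b⁻¹ = b⁻¹ * (a * c * a⁻¹ * c⁻¹) :=
            hc _ hc' _ (inv_mem hb)
          rw [h4]
        _ = _ := by group
    rw [h3]
    exact mul_mem hb' hc'
  · intro b hb hb'
    have h2 := hc _ hb' b hb
    have h3 : a * b⁻¹ * a⁻¹ * b⁻¹⁻¹ = (a * b * a⁻¹ * b⁻¹)⁻¹ := by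
      have h4 : b⁻¹ * (a * b * a⁻¹ * b⁻¹) * b = a * b * a⁻¹ * b⁻¹ := by
        rw [mul_assoc, h2, ← mul_assoc, inv_mul_cancel, one_mul]
      rw [← h4]
      group
    rw [h3]
    exact inv_mem hb'

/-- **`Heis` from generators.** -/
theorem heis_of [Finite G] {x : G} (hle : Z ≤ Subgroup.closure T)
    (hZ : ∀ z ∈ Z, ∀ t ∈ T, z * t = t * z)
    (hT : ∀ s ∈ T, ∀ t ∈ T, s * t * s⁻¹ * t⁻¹ ∈ Z) (hfix : ∀ z ∈ Z, x * z = z * x)
    (hnorm : ∀ t ∈ T, x * t * x⁻¹ ∈ Subgroup.closure T)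
    (hsurj : ∀ t ∈ T, ∃ s ∈ Subgroup.closure T, (x * s * x⁻¹ * s⁻¹) * t⁻¹ ∈ Z) :
    Heis x (Subgroup.closure T) Z := by
  classical
  have hc := cent_of hZ
  have hd := der_of hZ hT
  obtain ⟨R, hR⟩ : ∃ R, R = Subgroup.closure T := ⟨_, rfl⟩
  have hn : ∀ r ∈ Subgroup.closure T, x * r * x⁻¹ ∈ Subgroup.closure T := by
    have h1 : Subgroup.closure T ≤ (Subgroup.closure T).comap (MulAut.conj x).toMonoidHom := by
      rw [closure_le]
      intro t ht
      exact hnorm t ht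
    exact fun r hr => h1 hr
  rw [← hR] at hle hc hd hn hsurj ⊢
  -- the commutator is surjective modulo `Z`
  have hS : ∀ b ∈ R, ∃ c ∈ R, (x * c * x⁻¹ * c⁻¹) * b⁻¹ ∈ Z := by
    intro b hb
    rw [hR] at hb
    have hTR : ∀ t ∈ Subgroup.closure T, t ∈ R := by rw [hR]; exact fun t ht => ht
    refine Subgroup.closure_induction
      (p := fun b _ => ∃ c ∈ R, (x * c * x⁻¹ * c⁻¹) * b⁻¹ ∈ Z) ?_ ?_ ?_ ?_ hb
    · intro t ht
      exact hsurj t ht
    · refine ⟨1, one_mem _, ?_⟩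
      have : x * 1 * x⁻¹ * (1 : G)⁻¹ * (1 : G)⁻¹ = 1 := by group
      rw [this]
      exact one_mem _
    · rintro a b ha hb ⟨c, hcR, hcz⟩ ⟨d, hdR, hdz⟩
      refine ⟨c * d, mul_mem hcR hdR, ?_⟩
      have ha' := hTR a ha
      have hb' := hTR b hb
      -- modulo `Z` everything commutes
      obtain ⟨c', hc'⟩ : ∃ c', c' = x * c * x⁻¹ := ⟨_, rfl⟩
      obtain ⟨d', hd'⟩ : ∃ d', d' = x * d * x⁻¹ := ⟨_, rfl⟩
      have hc'R : c' ∈ R := hc' ▸ hn c hcR
      have hd'R : d' ∈ R := hd' ▸ hn d hdR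
      rw [← hc'] at hcz
      rw [← hd'] at hdz
      have e1 : x * (c * d) * x⁻¹ = c' * d' := by rw [hc', hd']; group
      rw [e1]
      obtain ⟨u, hu⟩ : ∃ u, u = c' * c⁻¹ * a⁻¹ := ⟨_, rfl⟩
      obtain ⟨v, hv⟩ : ∃ v, v = d' * d⁻¹ * b⁻¹ := ⟨_, rfl⟩
      rw [← hu] at hcz
      rw [← hv] at hdz
      have eu : c' = u * a * c := by rw [hu]; group
      have ev : d' = v * b * d := by rw [hv]; group
      -- `c' d' (c d)⁻¹ (a b)⁻¹ = u a c v b d d⁻¹ c⁻¹ b⁻¹ a⁻¹ = u v a [c, b] a⁻¹`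
      have k1 := hd c hcR b hb'
      have k2 : c' * d' * (c * d)⁻¹ * (a * b)⁻¹ = u * v * (c * b * c⁻¹ * b⁻¹) := by
        calc c' * d' * (c * d)⁻¹ * (a * b)⁻¹ = u * (a * c) * v * b * c⁻¹ * b⁻¹ * a⁻¹ := by
              rw [eu, ev]; group
          _ = u * (v * (a * c)) * b * c⁻¹ * b⁻¹ * a⁻¹ := by
            rw [hc v hdz (a * c) (mul_mem ha' hcR)]; group
          _ = u * v * (a * (c * b * c⁻¹ * b⁻¹)) * a⁻¹ := by group
          _ = u * v * ((c * b * c⁻¹ * b⁻¹) * a) * a⁻¹ := by rw [hc _ k1 a ha']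
          _ = _ := by group
      rw [k2]
      exact mul_mem (mul_mem hcz hdz) k1
    · rintro a ha ⟨c, hcR, hcz⟩
      have ha' := hTR a ha
      refine ⟨c⁻¹, inv_mem hcR, ?_⟩
      obtain ⟨c', hc'⟩ : ∃ c', c' = x * c * x⁻¹ := ⟨_, rfl⟩
      have hc'R : c' ∈ R := hc' ▸ hn c hcR
      rw [← hc'] at hcz
      obtain ⟨u, hu⟩ : ∃ u, u = c' * c⁻¹ * a⁻¹ := ⟨_, rfl⟩
      rw [← hu] at hcz
      have eu : c' = u * a * c := by rw [hu]; group
      have e1 : x * c⁻¹ * x⁻¹ = c'⁻¹ := by rw [hc']; group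
      rw [e1]
      -- `c⁻¹ a⁻¹ u⁻¹ c a = u⁻¹ c⁻¹ a⁻¹ c a`
      have k1 := hd c⁻¹ (inv_mem hcR) a⁻¹ (inv_mem ha')
      have k2 : c'⁻¹ * c⁻¹⁻¹ * a⁻¹⁻¹ = u⁻¹ * (c⁻¹ * a⁻¹ * c⁻¹⁻¹ * a⁻¹⁻¹) := by
        calc c'⁻¹ * c⁻¹⁻¹ * a⁻¹⁻¹ = c⁻¹ * a⁻¹ * u⁻¹ * (c * a) := by rw [eu]; group
          _ = u⁻¹ * (c⁻¹ * a⁻¹) * (c * a) := by
            rw [hc _ (inv_mem hcz) (c⁻¹ * a⁻¹) (mul_mem (inv_mem hcR) (inv_mem ha'))]
          _ = _ := by group
      rw [k2]
      exact mul_mem (inv_mem hcz) k1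
  refine ⟨hle, hc, hd, ?_, hfix, ?_⟩
  · -- normaliser
    let f : R → R := fun y => ⟨x * y * x⁻¹, hn y y.2⟩
    have hf : Function.Injective f := by
      intro a b hab
      have h1 : x * a * x⁻¹ = x * b * x⁻¹ := congrArg Subtype.val hab
      exact Subtype.ext (mul_left_cancel (mul_right_cancel h1))
    rw [mem_normalizer_iff]
    intro y
    refine ⟨hn y, fun hy => ?_⟩
    obtain ⟨z, hz⟩ := (Finite.injective_iff_surjective.1 hf) ⟨_, hy⟩
    have h1 : x * z * x⁻¹ = x * y * x⁻¹ := congrArg Subtype.val hz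
    have h2 : (z : G) = y := mul_left_cancel (mul_right_cancel h1)
    rw [← h2]
    exact z.2
  · -- injectivity modulo `Z`
    let N : Subgroup R := Z.subgroupOf R
    have hmem : ∀ c : R, x * c * x⁻¹ * (c : G)⁻¹ ∈ R := fun c =>
      mul_mem (hn c c.2) (inv_mem c.2)
    -- `[x, c z] = [x, c]`
    have hz1 : ∀ c ∈ R, ∀ z ∈ Z, x * (c * z) * x⁻¹ * (c * z)⁻¹ = x * c * x⁻¹ * c⁻¹ := by
      intro c hcR z hz
      have hxz : x * z * x⁻¹ = z := by rw [hfix z hz]; group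
      calc x * (c * z) * x⁻¹ * (c * z)⁻¹ = x * c * x⁻¹ * (x * z * x⁻¹) * z⁻¹ * c⁻¹ := by group
        _ = x * c * x⁻¹ * c⁻¹ := by rw [hxz]; group
    let f : R ⧸ N → R ⧸ N := Quotient.map' (fun c : R => ⟨x * c * x⁻¹ * (c : G)⁻¹, hmem c⟩)
      (by
        intro a c hac
        rw [QuotientGroup.leftRel_apply] at hac ⊢
        rw [mem_subgroupOf] at hac ⊢
        have hz : (a : G)⁻¹ * c ∈ Z := hac
        have e0 : (c : G) = a * ((a : G)⁻¹ * c) := by group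
        have e : x * (c : G) * x⁻¹ * (c : G)⁻¹ = x * (a : G) * x⁻¹ * (a : G)⁻¹ := by
          rw [e0]
          exact hz1 a a.2 _ hz
        have e2 : (((⟨x * a * x⁻¹ * (a : G)⁻¹, hmem a⟩ : R)⁻¹ *
            ⟨x * c * x⁻¹ * (c : G)⁻¹, hmem c⟩ : R) : G) = 1 := by
          push_cast
          rw [e]
          group
        rw [e2]
        exact one_mem _)
    have hsf : Function.Surjective f := by
      intro v
      obtain ⟨b, rfl⟩ := QuotientGroup.mk_surjective v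
      obtain ⟨c, hcR, hcz⟩ := hS b b.2
      refine ⟨((⟨c, hcR⟩ : R) : R ⧸ N), ?_⟩
      change (((⟨x * c * x⁻¹ * (c : G)⁻¹, hmem ⟨c, hcR⟩⟩ : R) : R ⧸ N)) = ((b : R) : R ⧸ N)
      rw [eq_comm, QuotientGroup.eq, mem_subgroupOf]
      change (b : G)⁻¹ * (x * c * x⁻¹ * c⁻¹) ∈ Z
      have h5 := hc _ hcz b b.2
      have h6 : (b : G)⁻¹ * (x * c * x⁻¹ * c⁻¹) = x * c * x⁻¹ * c⁻¹ * (b : G)⁻¹ := by
        calc (b : G)⁻¹ * (x * c * x⁻¹ * c⁻¹) = (b : G)⁻¹ * ((x * c * x⁻¹ * c⁻¹ * (b : G)⁻¹) * b) := by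
              group
          _ = (b : G)⁻¹ * (b * (x * c * x⁻¹ * c⁻¹ * (b : G)⁻¹)) := by rw [h5]
          _ = _ := by group
      rw [h6]
      exact hcz
    have hinj := Finite.injective_iff_surjective.2 hsf
    intro r hr hrz
    have h7 : f ((⟨r, hr⟩ : R) : R ⧸ N) = f ((1 : R) : R ⧸ N) := by
      change (((⟨x * r * x⁻¹ * (r : G)⁻¹, hmem ⟨r, hr⟩⟩ : R) : R ⧸ N)) =
        (((⟨x * ((1 : R) : G) * x⁻¹ * ((1 : R) : G)⁻¹, hmem 1⟩ : R) : R ⧸ N))
      rw [QuotientGroup.eq, mem_subgroupOf]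
      change (x * r * x⁻¹ * (r : G)⁻¹)⁻¹ * (x * ((1 : R) : G) * x⁻¹ * ((1 : R) : G)⁻¹) ∈ Z
      have e1 : x * ((1 : R) : G) * x⁻¹ * ((1 : R) : G)⁻¹ = 1 := by push_cast; group
      rw [e1, mul_one]
      exact inv_mem hrz
    have h8 := hinj h7
    rw [QuotientGroup.eq, mem_subgroupOf] at h8
    have h9 : (r : G)⁻¹ * 1 ∈ Z := h8
    rw [mul_one] at h9
    exact inv_mem_iff.1 h9

/-- **The order of a Heisenberg group.** -/
theorem big_of [Finite G] {R Z : Subgroup G} (hc : ∀ z ∈ Z, ∀ g ∈ R, z * g = g * z)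
    (hd : ∀ a ∈ R, ∀ b ∈ R, a * b * a⁻¹ * b⁻¹ ∈ Z) {N : ℕ} {c : Fin N → G} (hcR : ∀ i, c i ∈ R)
    (hs : ∀ i, ∀ z ∈ Z, ∃ g ∈ R, g * c i * g⁻¹ * (c i)⁻¹ = z ∧ ∀ j, j ≠ i → g * c j = c j * g) :
    Nat.card Z ^ N * Nat.card ↥(R ⊓ Subgroup.centralizer (R : Set G)) ≤ Nat.card R := by
  classical
  have hmul : ∀ a ∈ R, ∀ b ∈ R, ∀ c ∈ R,
      a * b * c * (a * b)⁻¹ * c⁻¹ = (a * c * a⁻¹ * c⁻¹) * (b * c * b⁻¹ * c⁻¹) := by
    intro a ha b hb c hcc
    have h2 := hc _ (hd b hb c hcc) a ha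
    have h3 := hc _ (hd b hb c hcc) (a * c * a⁻¹ * c⁻¹)
      (mul_mem (mul_mem (mul_mem ha hcc) (inv_mem ha)) (inv_mem hcc))
    calc a * b * c * (a * b)⁻¹ * c⁻¹ = a * (b * c * b⁻¹ * c⁻¹) * (c * a⁻¹ * c⁻¹) := by group
      _ = (b * c * b⁻¹ * c⁻¹) * a * (c * a⁻¹ * c⁻¹) := by rw [h2]
      _ = (b * c * b⁻¹ * c⁻¹) * (a * c * a⁻¹ * c⁻¹) := by group
      _ = _ := h3
  let θ : R →* (Fin N → R) :=
    { toFun := fun g i => ⟨g * c i * (g : G)⁻¹ * (c i)⁻¹,
        mul_mem (mul_mem (mul_mem g.2 (hcR i)) (inv_mem g.2)) (inv_mem (hcR i))⟩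
      map_one' := by
        funext i
        apply Subtype.ext
        change ((1 : R) : G) * c i * ((1 : R) : G)⁻¹ * (c i)⁻¹ = 1
        push_cast
        group
      map_mul' := by
        intro a b
        funext i
        apply Subtype.ext
        change ((a : G) * b) * c i * ((a : G) * b)⁻¹ * (c i)⁻¹ = _
        exact hmul a a.2 b b.2 _ (hcR i) }
  have hθ : ∀ (g : R) (i : Fin N), ((θ g i : R) : G) = g * c i * (g : G)⁻¹ * (c i)⁻¹ := fun _ _ => rfl
  -- the image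
  have h1 : ∀ v : Fin N → Z, ∃ g : R, ∀ i, ((θ g i : R) : G) = v i := by
    intro v
    have key : ∀ s : Finset (Fin N), ∃ g : R, ∀ i, ((θ g i : R) : G) = if i ∈ s then (v i : G) else 1 := by
      intro s
      induction s using Finset.induction_on with
      | empty =>
        refine ⟨1, fun i => ?_⟩
        rw [map_one]
        simp
      | insert j s hj ih =>
        obtain ⟨g, hg⟩ := ih
        obtain ⟨h, hhR, hh1, hh2⟩ := hs j (v j) (v j).2
        refine ⟨g * ⟨h, hhR⟩, fun i => ?_⟩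
        rw [map_mul, Pi.mul_apply]
        push_cast
        rw [hg i, hθ]
        by_cases hij : i = j
        · subst hij
          rw [if_neg hj, if_pos (Finset.mem_insert_self _ _), one_mul]
          exact hh1
        · have h3 := hh2 i hij
          have h4 : ((⟨h, hhR⟩ : R) : G) * c i * ((⟨h, hhR⟩ : R) : G)⁻¹ * (c i)⁻¹ = 1 := by
            change h * c i * h⁻¹ * (c i)⁻¹ = 1
            rw [h3]
            group
          rw [h4, mul_one]
          have h5 : i ∈ insert j s ↔ i ∈ s := by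
            rw [Finset.mem_insert]
            exact ⟨fun h => h.resolve_left hij, Or.inr⟩
          simp only [h5]
    obtain ⟨g, hg⟩ := key Finset.univ
    exact ⟨g, fun i => by rw [hg i, if_pos (Finset.mem_univ i)]⟩
  have h2 : Nat.card Z ^ N ≤ Nat.card θ.range := by
    have h3 : Nat.card (Fin N → Z) = Nat.card Z ^ N := by
      rw [Nat.card_fun, Nat.card_fin]
    rw [← h3]
    choose g hg using h1
    refine Nat.card_le_card_of_injective (fun v : Fin N → Z => (⟨θ (g v), g v, rfl⟩ : θ.range)) ?_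
    intro v w hvw
    funext i
    apply Subtype.ext
    rw [← hg v i, ← hg w i]
    exact congrArg (fun u : θ.range => ((u.1 i : R) : G)) hvw
  have h4 : Nat.card ↥(R ⊓ Subgroup.centralizer (R : Set G)) ≤ Nat.card θ.ker := by
    refine Nat.card_le_card_of_injective (fun w => (⟨⟨w.1, w.2.1⟩, ?_⟩ : θ.ker)) ?_
    · rw [MonoidHom.mem_ker]
      funext i
      apply Subtype.ext
      rw [hθ]
      change (w : G) * c i * (w : G)⁻¹ * (c i)⁻¹ = 1
      have h5 := (mem_centralizer_iff.1 w.2.2) (c i) (hcR i)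
      rw [← h5]
      group
    · intro v w hvw
      have h6 := congrArg (fun u : θ.ker => ((u.1 : R) : G)) hvw
      exact Subtype.ext h6
  have h5 : Nat.card θ.ker * Nat.card θ.range = Nat.card R := by
    rw [← Subgroup.index_ker, Subgroup.card_mul_index]
  rw [← h5, mul_comm (Nat.card θ.ker)]
  exact Nat.mul_le_mul h2 h4

end

/-! ### Toggling -/

/-- add or remove -/
def toggle (γ : ℕ) (S : List ℕ) : List ℕ := if γ ∈ S then S.erase γ else γ :: S

/-- the action of a root element on a set of roots -/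
def act1 (m : ℕ → Option ℕ) (S : List ℕ) : List ℕ :=
  S.foldr (fun γ acc => toggle γ ((m γ).elim acc fun k => toggle k acc)) []

/-- the action of a word -/
def acts (m : ℕ → ℕ → Option ℕ) (w : List ℕ) (S : List ℕ) : List ℕ :=
  w.foldr (fun a acc => act1 (m a) acc) S

section

variable {A : Type*} [CommGroup A] {e : ℕ → A}

theorem prod_toggle (he : ∀ γ, e γ * e γ = 1) (γ : ℕ) (S : List ℕ) :
    ((toggle γ S).map e).prod = e γ * (S.map e).prod := by
  unfold toggle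
  split_ifs with h
  · have h1 : (S.map e).prod = e γ * ((S.erase γ).map e).prod := by
      rw [← List.prod_cons, ← List.map_cons]
      exact ((List.perm_cons_erase h).map e).prod_eq
    rw [h1, ← mul_assoc, he, one_mul]
  · rw [List.map_cons, List.prod_cons]

theorem prod_foldr_toggle (he : ∀ γ, e γ * e γ = 1) (V S : List ℕ) :
    ((V.foldr toggle S).map e).prod = (V.map e).prod * (S.map e).prod := by
  induction V with
  | nil => simp
  | cons a V ih =>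
    rw [List.foldr_cons, prod_toggle he, ih, List.map_cons, List.prod_cons, mul_assoc]

theorem prod_act1 (he : ∀ γ, e γ * e γ = 1) (m : ℕ → Option ℕ) (S : List ℕ) :
    ((act1 m S).map e).prod = (S.map fun γ => e γ * (m γ).elim 1 e).prod := by
  unfold act1
  induction S with
  | nil => simp
  | cons a S ih =>
    rw [List.foldr_cons, prod_toggle he, List.map_cons, List.prod_cons, ← ih, mul_assoc]
    congr 1
    cases h : m a with
    | none =>
      change _ = 1 * _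
      rw [one_mul]
      rfl
    | some k => exact prod_toggle he k _

end

end Cfsg.Agent.H452.HeisT
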