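import Cfsg.Agent.H452.FprHeisT

/-!
# The toggling calculus: surjectivity of `[y, ·]` modulo `Z`
-/

set_option autoImplicit false
open Subgroup MulAction

namespace Cfsg.Agent.H452.HeisT

open Cfsg.Agent.H452.FprHeis

universe u

/-- the commutative quotient -/
theorem exists_quot {G : Type u} [Group G] {R Z : Subgroup G}
    (hc : ∀ z ∈ Z, ∀ g ∈ R, z * g = g * z) (hd : ∀ a ∈ R, ∀ b ∈ R, a * b * a⁻¹ * b⁻¹ ∈ Z) :
    ∃ (A : Type u) (_ : CommGroup A) (π : R →* A), ∀ r : R, π r = 1 ↔ (r : G) ∈ Z := by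
  let N : Subgroup R := Z.subgroupOf R
  have hN : N.Normal := by
    constructor
    intro n hn g
    rw [mem_subgroupOf] at hn ⊢
    change (g : G) * n * (g : G)⁻¹ ∈ Z
    rw [← hc _ hn g g.2, mul_inv_cancel_right]
    exact hn
  refine ⟨R ⧸ N, { (inferInstance : Group (R ⧸ N)) with mul_comm := ?_ }, QuotientGroup.mk' N, ?_⟩
  · intro a b
    obtain ⟨a, rfl⟩ := QuotientGroup.mk_surjective a
    obtain ⟨b, rfl⟩ := QuotientGroup.mk_surjective b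
    change ((a * b : R) : R ⧸ N) = ((b * a : R) : R ⧸ N)
    rw [QuotientGroup.eq, mem_subgroupOf]
    have h1 := hd (b : G)⁻¹ (inv_mem b.2) (a : G)⁻¹ (inv_mem a.2)
    have h2 : (((a * b)⁻¹ * (b * a) : R) : G) = (b : G)⁻¹ * (a : G)⁻¹ * (b : G)⁻¹⁻¹ * (a : G)⁻¹⁻¹ := by
      push_cast
      group
    rw [h2]
    exact h1
  · intro r
    change ((r : R) : R ⧸ N) = 1 ↔ _
    rw [QuotientGroup.eq_one_iff, mem_subgroupOf]

section

variable {G : Type*} [Group G] {R Z : Subgroup G} {A : Type*} [CommGroup A] {π : R →* A}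

theorem prodR {f : ℕ → G} {e : ℕ → A} {S : List ℕ}
    (h : ∀ γ ∈ S, ∃ hγ : f γ ∈ R, π ⟨f γ, hγ⟩ = e γ) :
    ∃ hS : (S.map f).prod ∈ R, π ⟨(S.map f).prod, hS⟩ = (S.map e).prod := by
  induction S with
  | nil => exact ⟨one_mem _, map_one π⟩
  | cons a S ih =>
    obtain ⟨h1, h2⟩ := ih fun γ hγ => h γ (List.mem_cons_of_mem _ hγ)
    obtain ⟨h3, h4⟩ := h a List.mem_cons_self
    refine ⟨mul_mem h3 h1, ?_⟩
    have h5 : (⟨((a :: S).map f).prod, mul_mem h3 h1⟩ : R) = ⟨f a, h3⟩ * ⟨(S.map f).prod, h1⟩ := rfl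
    rw [h5, map_mul, h2, h4]
    rfl

theorem conj_prod (x : G) (f : ℕ → G) (S : List ℕ) :
    x * (S.map f).prod * x⁻¹ = (S.map fun γ => x * f γ * x⁻¹).prod := by
  induction S with
  | nil => simp
  | cons a S ih =>
    rw [List.map_cons, List.prod_cons, List.map_cons, List.prod_cons, ← ih]
    group

variable (hπ : ∀ r : R, π r = 1 ↔ (r : G) ∈ Z)

include hπ

theorem act_of {Γ : List ℕ} {f : ℕ → G} {e : ℕ → A}
    (hf : ∀ γ ∈ Γ, ∃ hγ : f γ ∈ R, π ⟨f γ, hγ⟩ = e γ) (he : ∀ γ, e γ * e γ = 1)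
    {x : G} {m : ℕ → Option ℕ} (hx : ∀ γ ∈ Γ, ∀ k, m γ = some k → k ∈ Γ)
    (hx1 : ∀ γ ∈ Γ, x * f γ * x⁻¹ = f γ * (m γ).elim 1 f)
    (hxZ : ∀ z ∈ Z, x * z = z * x) (hle : Z ≤ R) {S : List ℕ} (hS : ∀ γ ∈ S, γ ∈ Γ)
    {g : G} (hg : ∃ hgR : g ∈ R, π ⟨g, hgR⟩ = (S.map e).prod) :
    ∃ hgR : x * g * x⁻¹ ∈ R, π ⟨x * g * x⁻¹, hgR⟩ = ((act1 m S).map e).prod := by
  obtain ⟨hgR, hg1⟩ := hg
  obtain ⟨hP, hP1⟩ := prodR (π := π) (f := f) (e := e) (S := S) fun γ hγ => hf γ (hS γ hγ)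
  -- `g = P z`
  obtain ⟨z, hz⟩ : ∃ z, z = ((S.map f).prod)⁻¹ * g := ⟨_, rfl⟩
  have hzZ : z ∈ Z := by
    have h1 : π ((⟨(S.map f).prod, hP⟩ : R)⁻¹ * ⟨g, hgR⟩) = 1 := by
      rw [map_mul, map_inv, hP1, hg1, inv_mul_cancel]
    rw [hπ] at h1
    rw [hz]
    exact h1
  have hg2 : g = (S.map f).prod * z := by rw [hz]; group
  have hxz : x * z * x⁻¹ = z := by rw [hxZ z hzZ]; group
  obtain ⟨hQ, hQ1⟩ := prodR (π := π) (f := fun γ => x * f γ * x⁻¹)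
    (e := fun γ => e γ * (m γ).elim 1 e) (S := S) (by
      intro γ hγ
      have hγΓ := hS γ hγ
      have h1 := hx1 γ hγΓ
      obtain ⟨h2, h3⟩ := hf γ hγΓ
      cases hm : m γ with
      | none =>
        rw [hm] at h1
        have h1' : x * f γ * x⁻¹ = f γ := by rw [h1]; exact mul_one _
        refine ⟨?_, ?_⟩
        · change x * f γ * x⁻¹ ∈ R
          rw [h1']; exact h2
        · have h4 : (⟨x * f γ * x⁻¹, by rw [h1']; exact h2⟩ : R) = ⟨f γ, h2⟩ := Subtype.ext h1'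
          change π ⟨x * f γ * x⁻¹, _⟩ = e γ * 1
          rw [h4, h3, mul_one]
      | some k =>
        rw [hm] at h1
        have h1' : x * f γ * x⁻¹ = f γ * f k := h1
        obtain ⟨h5, h6⟩ := hf k (hx γ hγΓ k hm)
        refine ⟨?_, ?_⟩
        · change x * f γ * x⁻¹ ∈ R
          rw [h1']; exact mul_mem h2 h5
        · have h4 : (⟨x * f γ * x⁻¹, by rw [h1']; exact mul_mem h2 h5⟩ : R) = ⟨f γ, h2⟩ * ⟨f k, h5⟩ :=
            Subtype.ext h1'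
          change π ⟨x * f γ * x⁻¹, _⟩ = e γ * e k
          rw [h4, map_mul, h3, h6])
  rw [← prod_act1 he] at hQ1
  have e1 : x * g * x⁻¹ = (S.map fun γ => x * f γ * x⁻¹).prod * z := by
    rw [hg2, ← conj_prod]
    calc x * ((S.map f).prod * z) * x⁻¹ = x * (S.map f).prod * x⁻¹ * (x * z * x⁻¹) := by group
      _ = _ := by rw [hxz]
  have hR : x * g * x⁻¹ ∈ R := by rw [e1]; exact mul_mem hQ (hle hzZ)
  refine ⟨hR, ?_⟩
  have e2 : (⟨x * g * x⁻¹, hR⟩ : R) = ⟨(S.map fun γ => x * f γ * x⁻¹).prod, hQ⟩ * ⟨z, hle hzZ⟩ :=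
    Subtype.ext e1
  rw [e2, map_mul, hQ1, (hπ ⟨z, hle hzZ⟩).2 hzZ, mul_one]

theorem mem_toggle {Γ : List ℕ} {γ : ℕ} (hγ : γ ∈ Γ) {S : List ℕ} (hS : ∀ γ ∈ S, γ ∈ Γ) :
    ∀ k ∈ toggle γ S, k ∈ Γ := by
  intro k hk
  unfold toggle at hk
  split_ifs at hk with h
  · exact hS k (List.mem_of_mem_erase hk)
  · rcases List.mem_cons.1 hk with rfl | hk
    · exact hγ
    · exact hS k hk

omit hπ in
theorem mem_act1 {Γ : List ℕ} {m : ℕ → Option ℕ} (hx : ∀ γ ∈ Γ, ∀ k, m γ = some k → k ∈ Γ) {S : List ℕ}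
    (hS : ∀ γ ∈ S, γ ∈ Γ) : ∀ k ∈ act1 m S, k ∈ Γ := by
  have aux : ∀ {γ : ℕ}, γ ∈ Γ → ∀ {S : List ℕ}, (∀ γ ∈ S, γ ∈ Γ) → ∀ k ∈ toggle γ S, k ∈ Γ := by
    intro γ hγ S hS k hk
    unfold toggle at hk
    split_ifs at hk with h
    · exact hS k (List.mem_of_mem_erase hk)
    · rcases List.mem_cons.1 hk with rfl | hk
      · exact hγ
      · exact hS k hk
  unfold act1
  induction S with
  | nil => intro k hk; simp at hk
  | cons a S ih =>
    rw [List.foldr_cons]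
    have h1 := ih fun γ hγ => hS γ (List.mem_cons_of_mem _ hγ)
    have ha := hS a List.mem_cons_self
    apply aux ha
    cases hm : m a with
    | none => exact h1
    | some k => exact aux (hx a ha k hm) h1

/-- **Surjectivity of `[y, ·]` modulo `Z`.** -/
theorem surj_of' {Γ : List ℕ} {f : ℕ → G} {e : ℕ → A}
    (hf : ∀ γ ∈ Γ, ∃ hγ : f γ ∈ R, π ⟨f γ, hγ⟩ = e γ) (he : ∀ γ, e γ * e γ = 1)
    {W : List ℕ} {x : ℕ → G} {m : ℕ → ℕ → Option ℕ}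
    (hx : ∀ a ∈ W, ∀ γ ∈ Γ, ∀ k, m a γ = some k → k ∈ Γ)
    (hx1 : ∀ a ∈ W, ∀ γ ∈ Γ, x a * f γ * (x a)⁻¹ = f γ * (m a γ).elim 1 f)
    (hxZ : ∀ a ∈ W, ∀ z ∈ Z, x a * z = z * x a) (hle : Z ≤ R) {w : List ℕ} (hw : ∀ a ∈ w, a ∈ W)
    {v : List ℕ} (hv : ∀ γ ∈ v, γ ∈ Γ) {β : ℕ} (hβ : β ∈ Γ) (hV : v.foldr toggle (acts m w v) = [β]) :
    (v.map f).prod ∈ R ∧
      ((w.map x).prod * (v.map f).prod * (w.map x).prod⁻¹ * (v.map f).prod⁻¹) * (f β)⁻¹ ∈ Z := by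
  obtain ⟨hP, hP1⟩ := prodR (π := π) (f := f) (e := e) (S := v) fun γ hγ => hf γ (hv γ hγ)
  refine ⟨hP, ?_⟩
  have key : ∀ w : List ℕ, (∀ a ∈ w, a ∈ W) → (∀ γ ∈ acts m w v, γ ∈ Γ) ∧
      ∃ hgR : (w.map x).prod * (v.map f).prod * (w.map x).prod⁻¹ ∈ R,
        π ⟨(w.map x).prod * (v.map f).prod * (w.map x).prod⁻¹, hgR⟩ = ((acts m w v).map e).prod := by
    intro w
    induction w with
    | nil =>
      intro _
      refine ⟨hv, ?_⟩
      have h1 : (([] : List ℕ).map x).prod * (v.map f).prod * (([] : List ℕ).map x).prod⁻¹ =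
          (v.map f).prod := by simp
      refine ⟨by rw [h1]; exact hP, ?_⟩
      have h2 : (⟨(([] : List ℕ).map x).prod * (v.map f).prod * (([] : List ℕ).map x).prod⁻¹,
        by rw [h1]; exact hP⟩ : R) = ⟨(v.map f).prod, hP⟩ := Subtype.ext h1
      rw [h2]
      exact hP1
    | cons a w ih =>
      intro hw
      obtain ⟨h1, h2⟩ := ih fun b hb => hw b (List.mem_cons_of_mem _ hb)
      have ha := hw a List.mem_cons_self
      refine ⟨mem_act1 (hx a ha) h1, ?_⟩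
      obtain ⟨h3, h4⟩ := act_of hπ hf he (hx a ha) (hx1 a ha) (hxZ a ha) hle h1 h2
      have h5 : ((a :: w).map x).prod * (v.map f).prod * ((a :: w).map x).prod⁻¹ =
          x a * ((w.map x).prod * (v.map f).prod * (w.map x).prod⁻¹) * (x a)⁻¹ := by
        rw [List.map_cons, List.prod_cons]
        group
      refine ⟨by rw [h5]; exact h3, ?_⟩
      have h6 : (⟨((a :: w).map x).prod * (v.map f).prod * ((a :: w).map x).prod⁻¹,
        by rw [h5]; exact h3⟩ : R) = ⟨_, h3⟩ := Subtype.ext h5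
      rw [h6]
      exact h4
  obtain ⟨-, hY, hY1⟩ := key w hw
  obtain ⟨hβR, hβ1⟩ := hf β hβ
  have h1 := prod_foldr_toggle he v (acts m w v)
  rw [hV, List.map_cons, List.map_nil, List.prod_cons, List.prod_nil, mul_one] at h1
  have h2 : π (⟨_, hY⟩ * (⟨(v.map f).prod, hP⟩ : R)⁻¹ * (⟨f β, hβR⟩ : R)⁻¹) = 1 := by
    rw [map_mul, map_mul, map_inv, map_inv, hY1, hP1, hβ1, h1]
    have hsq : (v.map e).prod * (v.map e).prod = 1 := by
      rw [← List.prod_map_mul]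
      apply List.prod_eq_one
      intro y hy
      obtain ⟨c, -, rfl⟩ := List.mem_map.1 hy
      exact he c
    have hinv : ((v.map e).prod)⁻¹ = (v.map e).prod := inv_eq_of_mul_eq_one_left hsq
    rw [hinv, mul_comm ((acts m w v).map e).prod, ← h1, mul_inv_cancel]
  exact (hπ _).1 h2

end

end Cfsg.Agent.H452.HeisT
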